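import Cfsg.Agent.H46.E6O5.Rows
import Cfsg.Agent.H46.E6O5.Weyl

/-!
The words of the three reflections are products of root elements of the subsystem.
-/

set_option autoImplicit false
set_option maxRecDepth 100000

namespace Cfsg.Agent.H46.E6O5

open Cfsg.Lie

/-- The root elements of a word in simple reflections. -/
def expand (w : List (Fin 6)) : List ℕ :=
  w.flatMap fun i => [chevE6.simple i, chevE6.neg (chevE6.simple i), chevE6.simple i]

/-- The three reflections as products of root elements. -/
def reflRoots : List (List ℕ) := [[46, 25, 46], [39, 32, 39], [71, 0, 71]]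

theorem refl_rows : ∀ i : Fin 3, pr (expand (refW.getD i [])) = pr (reflRoots.getD i []) := by decide +kernel

theorem expand_roots : ∀ i : Fin 3, (∀ r ∈ expand (refW.getD i []), r ∈ roots) ∧
    (∀ r ∈ reflRoots.getD i [], r ∈ roots) ∧ ∀ r ∈ reflRoots.getD i [], r ∈ roots3 := by decide +kernel

end Cfsg.Agent.H46.E6O5
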