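import Cfsg.Agent.H46.E6O5.Pair
import Cfsg.Agent.H46.E6O5.Refl
import Cfsg.Agent.H67.ChevTorusLang

/-!
The fixed elements of the twisted map commuting with the diagonal element of order five.
-/

set_option autoImplicit false

namespace Cfsg.Agent.H46.E6O5

open Cfsg.Lie Cfsg.Agent.H65 Cfsg.Agent.H67.Chev
open scoped Matrix MatrixGroups

/-- The group generated by the twelve root elements with parameter one. -/
def sub2 (L : Type*) [Field L] : Subgroup (GL chevE6.Idx L) :=
  Subgroup.closure {g | ∃ r ∈ roots3, g = goodE6.xg r (1 : L)}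

section Weyl

variable {L : Type*} [Field L]

theorem perm_rc {n : GL chevE6.Idx L} (hn : n ∈ chevE6.monomialSubgroup L) (s : Fin chevE6.nroots)
    (k : Fin chevE6.rank) : goodE6.rc (goodE6.perm n s) k =
      ∑ j : Fin chevE6.rank, goodE6.rc s j * goodE6.rc (goodE6.perm n (goodE6.simpleF j)) k := by
  obtain ⟨-, -, Lm, hL⟩ := goodE6.monRel_perm hn
  have e : goodE6.rc s = ∑ j, goodE6.rc s j • goodE6.rc (goodE6.simpleF j) := by
    funext m
    simp [Good.simpleF, goodE6.rc_simple, Finset.sum_apply, Pi.single_apply]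
  rw [hL, e, map_sum, Finset.sum_apply, ← e]
  exact Finset.sum_congr rfl fun j _ => by rw [map_smul, Pi.smul_apply, smul_eq_mul, ← hL]

theorem perm_pair {n : GL chevE6.Idx L} (hn : n ∈ chevE6.monomialSubgroup L) (r s : Fin chevE6.nroots) :
    goodE6.tab.pair 6 (goodE6.perm n r) (goodE6.perm n s) = goodE6.tab.pair 6 r s := by
  obtain ⟨w, h, hh, rfl⟩ := goodE6.exists_word hn
  rw [goodE6.perm_mul (goodE6.nProd_mem w) (Subgroup.mem_sup_left hh), goodE6.perm_diagonal hh, mul_one,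
    goodE6.perm_nProd]
  have key : chevE6.pairing ((w.map goodE6.sPerm).prod r : Fin chevE6.nroots).val
      ((w.map goodE6.sPerm).prod s : Fin chevE6.nroots).val = chevE6.pairing r s := by
    clear hn
    induction w with
    | nil => rfl
    | cons i w ih =>
      rw [List.map_cons, List.prod_cons, Equiv.Perm.mul_apply, Equiv.Perm.mul_apply, goodE6.sPerm_apply,
        goodE6.sPerm_apply, goodE6.pairing_reflect i.2 (Fin.isLt _) (Fin.isLt _), ih]
  rwa [goodE6.pairing_eq_pair (Fin.isLt _) (Fin.isLt _), goodE6.pairing_eq_pair r.2 s.2] at key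

theorem wt_cart : ∀ i : Fin chevE6.rank, (3 : ℤ) ∣ ∑ k : Fin chevE6.rank, wt.getD k 0 * goodE6.tab.cm i k := by
  decide +kernel

theorem perm_wtOk {n : GL chevE6.Idx L} (hn : n ∈ chevE6.monomialSubgroup L) :
    wtOk (List.ofFn fun j => (goodE6.perm n (goodE6.simpleF j) : ℕ)) := by
  have hget : ∀ (f : Fin chevE6.rank → ℕ) (j : Fin chevE6.rank), (List.ofFn f).getD j 0 = f j := fun f j => by
    rw [List.getD_eq_getElem?_getD, List.getElem?_ofFn, dif_pos j.2, Option.getD_some]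
  intro k
  simp only [hget]
  obtain ⟨w, h, hh, rfl⟩ := goodE6.exists_word hn
  rw [goodE6.perm_mul (goodE6.nProd_mem w) (Subgroup.mem_sup_left hh), goodE6.perm_diagonal hh, mul_one,
    goodE6.perm_nProd]
  clear hn
  induction w generalizing k with
  | nil =>
    refine ⟨0, ?_⟩
    simp [Good.simpleF, goodE6.rc_simple, Pi.single_apply]
  | cons i w ih =>
    let π := (w.map goodE6.sPerm).prod
    let S : Fin chevE6.rank → ℤ := fun k => ∑ j : Fin chevE6.rank, wt.getD j 0 * goodE6.rc (π (goodE6.simpleF j) : ℕ) k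
    have hS : ∀ k, (3 : ℤ) ∣ S k - wt.getD k 0 := ih
    have hc : (3 : ℤ) ∣ ∑ j : Fin chevE6.rank, wt.getD j 0 * chevE6.cartan i (π (goodE6.simpleF j) : ℕ) := by
      have e : ∑ j : Fin chevE6.rank, wt.getD j 0 * chevE6.cartan i (π (goodE6.simpleF j) : ℕ) =
          ∑ m, (S m - wt.getD m 0) * goodE6.tab.cm i m + ∑ m : Fin chevE6.rank, wt.getD m 0 * goodE6.tab.cm i m := by
        rw [← Finset.sum_add_distrib]
        simp only [sub_mul, sub_add_cancel, S, Finset.sum_mul]
        rw [Finset.sum_comm]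
        refine Finset.sum_congr rfl fun j _ => ?_
        rw [goodE6.cartan_eq (Fin.isLt _) i.2, Good.cartForm, Finset.mul_sum]
        exact Finset.sum_congr rfl fun m _ => by ring
      rw [e]
      exact dvd_add (Finset.dvd_sum fun m _ => (hS m).mul_right _) (wt_cart i)
    have e : ∀ j, goodE6.rc (((i :: w).map goodE6.sPerm).prod (goodE6.simpleF j) : ℕ) k =
        goodE6.rc (π (goodE6.simpleF j) : ℕ) k -
          chevE6.cartan i (π (goodE6.simpleF j) : ℕ) * (Pi.single i (1 : ℤ) : Fin chevE6.rank → ℤ) k := by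
      intro j
      rw [List.map_cons, List.prod_cons, Equiv.Perm.mul_apply, goodE6.sPerm_apply,
        goodE6.rc_reflect i.2 (Fin.isLt _)]
      simp [π, Pi.single_apply]
    simp only [e, mul_sub, Finset.sum_sub_distrib, ← mul_assoc, ← Finset.sum_mul]
    rw [sub_right_comm]
    exact dvd_sub (ih k) (hc.mul_right _)

theorem nP_cons (i : Fin chevE6.rank) (w : List (Fin chevE6.rank)) :
    (goodE6.nProd (i :: w) : GL chevE6.Idx L) = goodE6.ng (chevE6.simple i) (1 : L) * goodE6.nProd w := by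
  simp [Good.nProd]

theorem nProd_refl [CharP L 2] (i : Fin 3) : goodE6.nProd (refW.getD i []) = gp L (reflRoots.getD i []) := by
  have e : ∀ w : List (Fin 6), (goodE6.nProd w : GL chevE6.Idx L) = gp L (expand w) := by
    intro w
    induction w with
    | nil => rfl
    | cons j w ih =>
      refine (nP_cons j w).trans ?_
      rw [show expand (j :: w) = [chevE6.simple j, chevE6.neg (chevE6.simple j), chevE6.simple j] ++ expand w
        from List.flatMap_cons, gp_append]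
      refine congrArg₂ (· * ·) ?_ ih
      simp [gp, Good.ng, CharTwo.neg_eq, mul_assoc]
  rw [e, gp_eq (expand_roots i).1 (expand_roots i).2.1 (refl_rows i)]

theorem nProd_sub2 [CharP L 2] : ∀ w : List ℕ, (goodE6.nProd (solW w) : GL chevE6.Idx L) ∈ sub2 L
  | [] => by
    show (1 : GL chevE6.Idx L) ∈ _
    exact one_mem _
  | a :: w => by
    have e : solW (a :: w) = refW.getD a [] ++ solW w := by simp [solW]
    rw [e, show (goodE6.nProd (refW.getD a [] ++ solW w) : GL chevE6.Idx L) = _ from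
      goodE6.nProd_append (refW.getD a []) (solW w)]
    refine mul_mem ?_ (nProd_sub2 w)
    by_cases ha : a < 3
    · rw [show refW.getD a [] = refW.getD (⟨a, ha⟩ : Fin 3) [] from rfl, nProd_refl]
      refine Subgroup.list_prod_mem _ fun g hg => ?_
      obtain ⟨r, hr, rfl⟩ := List.mem_map.1 hg
      exact Subgroup.subset_closure ⟨r, (expand_roots ⟨a, ha⟩).2.2 r hr, rfl⟩
    · rw [List.getD_eq_default _ _ (by simp [refW]; omega)]
      show (1 : GL chevE6.Idx L) ∈ _
      exact one_mem _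

theorem stab_cases [CharP L 2] {n : GL chevE6.Idx L} (hn : n ∈ chevE6.monomialSubgroup L)
    (hres : ∀ s, res (goodE6.perm n s : ℕ) = res (s : ℕ)) :
    ∃ n' h, n' ∈ sub2 L ∧ n' ∈ chevE6.monomialSubgroup L ∧ h ∈ chevE6.diagonalSubgroup L ∧ n = n' * h := by
  set f : Fin chevE6.rank → ℕ := fun j => (goodE6.perm n (goodE6.simpleF j) : ℕ) with hf
  have hc : ∀ (j : ℕ) (hj : j < chevE6.rank), f ⟨j, hj⟩ ∈ cand.getD j [] := fun j hj =>
    cand_spec ⟨j, hj⟩ _ (hres _)
  have hok : ∀ (i j : ℕ) (hi : i < chevE6.rank) (hj : j < chevE6.rank), ok (f ⟨i, hi⟩) (f ⟨j, hj⟩) i j :=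
    fun i j hi hj => perm_pair hn (goodE6.simpleF ⟨i, hi⟩) (goodE6.simpleF ⟨j, hj⟩)
  have hl : List.ofFn f ∈ sols.map Prod.fst := search _ (hc 0 (by decide)) _ (hc 5 (by decide)) (hok _ _ _ _)
    (hok _ _ _ _) _ (hc 2 (by decide)) (hok _ _ _ _) (hok _ _ _ _)
    _ (hc 4 (by decide)) (hok _ _ _ _) (hok _ _ _ _) (hok _ _ _ _)
    _ (hc 3 (by decide)) (hok _ _ _ _) (hok _ _ _ _) (hok _ _ _ _) (hok _ _ _ _)
    _ (hc 1 (by decide)) (hok _ _ _ _) (hok _ _ _ _) (hok _ _ _ _) (hok _ _ _ _) (hok _ _ _ _) (perm_wtOk hn)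
  obtain ⟨p, hp, hpe⟩ := List.mem_map.1 hl
  set n' : GL chevE6.Idx L := goodE6.nProd (solW p.2)
  have hn' : n' ∈ chevE6.monomialSubgroup L := goodE6.nProd_mem _
  have hperm : ∀ j, goodE6.perm n' (goodE6.simpleF j) = goodE6.perm n (goodE6.simpleF j) := by
    intro j
    refine Fin.ext ?_
    have h1 := sols_spec p hp j
    rw [hpe, List.getD_eq_getElem?_getD, List.getElem?_ofFn, dif_pos j.2, Option.getD_some] at h1
    refine Eq.trans ?_ h1.symm
    rw [show goodE6.perm n' = _ from goodE6.perm_nProd (solW p.2)]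
    have key : ∀ w : List (Fin chevE6.rank), ((w.map goodE6.sPerm).prod (goodE6.simpleF j) : ℕ) =
        w.foldr (fun (i : Fin chevE6.rank) x => chevE6.reflectRoot i x) (chevE6.simple j) := by
      intro w
      induction w with
      | nil => rfl
      | cons a w ih => rw [List.map_cons, List.prod_cons, Equiv.Perm.mul_apply, goodE6.sPerm_apply, ih]; rfl
    exact key _
  refine ⟨n', n'⁻¹ * n, nProd_sub2 _, hn', ?_, by group⟩
  refine goodE6.mem_diagonal_of_pos (mul_mem (inv_mem hn') hn) fun j => ?_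
  rw [goodE6.perm_mul (inv_mem hn') hn, goodE6.perm_inv hn', Equiv.Perm.mul_apply, ← hperm,
    Equiv.Perm.inv_def, Equiv.symm_apply_apply]
  exact goodE6.isPosRoot_simple j.2

end Weyl

section Main

variable {L : Type*} [Field L] [CharP L 2]

theorem sub2_le : sub2 L ≤ sub L roots3 := by
  refine (Subgroup.closure_le _).2 ?_
  rintro _ ⟨r, hr, rfl⟩
  exact xg_mem_sub hr 1

theorem tw_sub2 {g : GL chevE6.Idx L} (hg : g ∈ sub2 L) : tw L g = g := by
  induction hg using Subgroup.closure_induction with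
  | mem x hx =>
    obtain ⟨r, hr, rfl⟩ := hx
    rw [tw_xg ((by decide : ∀ r ∈ roots3, r < chevE6.nroots) r hr), pi_roots3 r hr, one_pow]
  | one => exact map_one _
  | mul a b _ _ ha hb => rw [map_mul, ha, hb]
  | inv a _ ha => rw [map_inv, ha]

/-- The parameters of the diagonal element of order five. -/
def zP (u : Lˣ) : Fin chevE6.rank → Lˣ := Pi.mulSingle ⟨0, by decide⟩ (u ^ 2) * Pi.mulSingle ⟨5, by decide⟩ u

omit [CharP L 2] in
theorem torus_zP (u : Lˣ) : goodE6.torus (zP u) = tP (u : L) := by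
  rw [zP, map_mul, goodE6.torus_mulSingle, goodE6.torus_mulSingle, tP]
  rfl

omit [CharP L 2] in
theorem val_zP (u : Lˣ) (s : ℕ) : goodE6.torusVal (zP u) s = u ^ chi s := by
  rw [chi, show goodE6.tab.cart 6 0 s = goodE6.cartForm 0 (goodE6.rc s) from goodE6.cart_eq_cartForm 0 s,
    show goodE6.tab.cart 6 5 s = goodE6.cartForm 5 (goodE6.rc s) from goodE6.cart_eq_cartForm 5 s, zpow_add, zpow_mul]
  simp only [Good.torusVal, zP, Pi.mul_apply, mul_zpow, Finset.prod_mul_distrib]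
  congr 1
  · refine (Finset.prod_eq_single (⟨0, by decide⟩ : Fin chevE6.rank) (fun b _ hb => ?_) (by simp)).trans ?_
    · rw [Pi.mulSingle_eq_of_ne hb, one_zpow]
    · rw [Pi.mulSingle_eq_same]; norm_cast
  · refine (Finset.prod_eq_single (⟨5, by decide⟩ : Fin chevE6.rank) (fun b _ hb => ?_) (by simp)).trans ?_
    · rw [Pi.mulSingle_eq_of_ne hb, one_zpow]
    · rw [Pi.mulSingle_eq_same]

omit [CharP L 2] in
theorem prod_zpow_sum {α : Type*} (a : Lˣ) (s : Finset α) (f : α → ℤ) :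
    ∏ i ∈ s, a ^ f i = a ^ ∑ i ∈ s, f i := by
  classical
  induction s using Finset.induction_on with
  | empty => simp
  | insert i s hi ih => rw [Finset.prod_insert hi, Finset.sum_insert hi, ih, zpow_add]

omit [CharP L 2] in
theorem torusVal_of_simple {z w : Fin chevE6.rank → Lˣ}
    (h : ∀ j : Fin chevE6.rank, goodE6.torusVal z (chevE6.simple j) = goodE6.torusVal w (chevE6.simple j)) :
    goodE6.torus z = goodE6.torus w := by
  have key : ∀ (y : Fin chevE6.rank → Lˣ) (s : ℕ), s < chevE6.nroots → goodE6.torusVal y s =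
      ∏ j : Fin chevE6.rank, goodE6.torusVal y (chevE6.simple j) ^ goodE6.rc s j := by
    intro y s _
    simp only [Good.torusVal, ← Finset.prod_zpow, ← zpow_mul]
    rw [Finset.prod_comm]
    refine Finset.prod_congr rfl fun k _ => ?_
    rw [prod_zpow_sum (y k)]
    congr 1
    refine Finset.sum_congr rfl fun j _ => ?_
    rw [goodE6.rc_simple, goodE6.cartForm_single, one_mul, mul_comm]
  have hker : z / w ∈ (goodE6.torus (F := L)).ker := by
    rw [MonoidHom.mem_ker, goodE6.torus_eq_one_iff]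
    intro s hs
    have h1 := goodE6.torusVal_mul (z / w) w s
    rw [div_mul_cancel, key z s hs, Finset.prod_congr rfl fun j _ => by rw [h j], ← key w s hs] at h1
    exact mul_eq_right.1 h1.symm
  rw [MonoidHom.mem_ker, map_div, div_eq_one] at hker
  exact hker

omit [CharP L 2] in
/-- A fixed unipotent element is supported on the twelve roots. -/
theorem fixed_support {u : Lˣ} (hu : IsPrimitiveRoot u 5) {S : Set ℕ} (hS : goodE6.PosClosed S)
    {v : GL chevE6.Idx L} (hv : v ∈ goodE6.posSub S) (hc : tP (u : L) * v * (tP (u : L))⁻¹ = v) :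
    ∃ t : ℕ → L, (∀ r, r ∉ S → t r = 0) ∧
      (∀ r, chevE6.nroots / 2 ≤ r → r < chevE6.nroots → t r ≠ 0 → r ∈ roots3) ∧
      v = goodE6.ordProd (chevE6.nroots / 2) t := by
  obtain ⟨t, ⟨ht, rfl⟩, -⟩ := goodE6.posSub_normal_form hS hv
  rw [← torus_zP, torus_conj_ordProd _ _ t le_rfl] at hc
  refine ⟨t, fun r hr => ht r (Or.inl hr), fun r h1 h2 hne => ?_, rfl⟩
  have := goodE6.ordProd_injective _ le_rfl _ _ hc r h1 h2
  refine res_zero ⟨r, h2⟩ ?_
  have e : goodE6.torusVal (zP u) r = 1 := Units.ext (mul_right_cancel₀ hne (this.trans (one_mul _).symm))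
  rw [val_zP, hu.zpow_eq_one_iff_dvd] at e
  exact_mod_cast e

theorem tw_ordProd {t : ℕ → L}
    (ht : ∀ r, chevE6.nroots / 2 ≤ r → r < chevE6.nroots → t r ≠ 0 → r ∈ roots3) :
    tw L (goodE6.ordProd (chevE6.nroots / 2) t) = goodE6.ordProd (chevE6.nroots / 2) (fun r => t r ^ 2) ∧
      goodE6.ordProd (chevE6.nroots / 2) (fun r => t r ^ 2) ∈ sub L roots3 := by
  constructor
  · rw [Good.ordProd, Good.ordProd, map_list_prod, List.map_map]
    refine congrArg List.prod (List.map_congr_left fun r hr => ?_)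
    rw [List.mem_range'_1] at hr
    rw [Function.comp_apply]
    by_cases h : t r = 0
    · rw [h, goodE6.xg_zero, map_one, zero_pow two_ne_zero, goodE6.xg_zero]
    · rw [tw_xg (by omega), pi_roots3 r (ht r hr.1 (by omega) h)]
  · refine Subgroup.list_prod_mem _ fun g hg => ?_
    obtain ⟨r, hr, rfl⟩ := List.mem_map.1 hg
    rw [List.mem_range'_1] at hr
    by_cases h : t r = 0
    · simp only [h, zero_pow two_ne_zero, goodE6.xg_zero]; exact one_mem _
    · exact xg_mem_sub (ht r hr.1 (by omega) h) _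

theorem fixed_mem_sub2 {t : ℕ → L}
    (ht : ∀ r, chevE6.nroots / 2 ≤ r → r < chevE6.nroots → t r ≠ 0 → r ∈ roots3)
    (hf : tw L (goodE6.ordProd (chevE6.nroots / 2) t) = goodE6.ordProd (chevE6.nroots / 2) t) :
    goodE6.ordProd (chevE6.nroots / 2) t ∈ sub2 L := by
  rw [(tw_ordProd ht).1] at hf
  refine Subgroup.list_prod_mem _ fun g hg => ?_
  obtain ⟨r, hr, rfl⟩ := List.mem_map.1 hg
  rw [List.mem_range'_1] at hr
  have := goodE6.ordProd_injective _ le_rfl _ _ hf r hr.1 (by omega)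
  by_cases h : t r = 0
  · rw [h, goodE6.xg_zero]; exact one_mem _
  · have h1 : t r = 1 := mul_left_cancel₀ h (by rw [mul_one, ← pow_two]; exact this)
    exact Subgroup.subset_closure ⟨r, ht r hr.1 (by omega) h, by rw [h1]⟩

theorem weights3 : ∀ k : Fin chevE6.rank, (3 : ℤ) ∣ goodE6.tab.cm k 0 - goodE6.tab.cm k 2 +
    goodE6.tab.cm k 4 - goodE6.tab.cm k 5 := by decide +kernel

theorem sum_roots : ∀ k : Fin chevE6.rank, goodE6.rc 38 k = (1 : ℤ) • goodE6.rc 37 k + (1 : ℤ) • goodE6.rc 36 k := by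
  decide +kernel

theorem simple_vals : chevE6.simple 0 = 56 ∧ chevE6.simple 1 = 46 ∧ chevE6.simple 2 = 42 ∧
    chevE6.simple 3 = 39 ∧ chevE6.simple 4 = 37 ∧ chevE6.simple 5 = 36 := by decide +kernel

theorem chi_simple : chi 56 = 4 ∧ chi 46 = 0 ∧ chi 42 = -2 ∧ chi 39 = 0 ∧ chi 37 = -1 ∧ chi 36 = 2 := by
  decide +kernel

theorem refl_pi : ∀ p ∈ [(56, 35), (36, 56), (42, 38), (37, 42), (46, 46), (39, 39)],
    chevE6.reflectRoot 5 (graphE6.S.π p.1) = p.2 := by decide +kernel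

/-- A diagonal element fixed by the twisted map followed by the reflection is a power of the element. -/
theorem diag_fixed [Fintype L] [DecidableEq L] (hL : Fintype.card L = 16) {u : Lˣ} (hu : IsPrimitiveRoot u 5)
    {d : GL chevE6.Idx L} (hd : d ∈ chevE6.diagonalSubgroup L)
    (hfix : goodE6.ng 36 (1 : L) * tw L d * (goodE6.ng 36 (1 : L))⁻¹ = d) :
    ∃ k : ℕ, d = tP (u : L) ^ k := by
  obtain ⟨z, rfl⟩ := goodE6.mem_diagonal.1 hd
  have hn : goodE6.ng 36 (1 : L) ∈ chevE6.monomialSubgroup L := goodE6.ng_mem_N (by decide) one_ne_zero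
  have hperm : goodE6.perm (goodE6.ng 36 (1 : L)) = goodE6.sPerm ⟨5, by decide⟩ := by
    rw [← simple_vals.2.2.2.2.2]
    exact goodE6.perm_ng_simple ⟨5, by decide⟩
  have htwd : tw L (goodE6.torus z) ∈ chevE6.diagonalSubgroup L := by
    have e : (goodE6.ng 36 (1 : L))⁻¹ * goodE6.torus z * goodE6.ng 36 (1 : L) = tw L (goodE6.torus z) := by
      calc _ = (goodE6.ng 36 (1 : L))⁻¹ *
            (goodE6.ng 36 (1 : L) * tw L (goodE6.torus z) * (goodE6.ng 36 (1 : L))⁻¹) * goodE6.ng 36 (1 : L) := by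
            rw [hfix]
        _ = _ := by group
    rw [← e]
    simpa using goodE6.diagonal_normalized (inv_mem hn) hd
  obtain ⟨w, hw⟩ := goodE6.mem_diagonal.1 htwd
  rw [hw] at hfix
  set c : ℕ → Lˣ := goodE6.torusVal z with hcdef
  have hrel : ∀ p ∈ [(56, 35), (36, 56), (42, 38), (37, 42), (46, 46), (39, 39)], c p.2 = c p.1 ^ 2 := by
    intro p hp
    have hs : p.1 < chevE6.nroots := (by decide : ∀ p ∈ [(56, 35), (36, 56), (42, 38), (37, 42), (46, 46), (39, 39)],
      p.1 < chevE6.nroots) p hp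
    have hπ : graphE6.S.π p.1 < chevE6.nroots := graphE6.pi_lt okE6 hs
    have h1 := torusVal_conj hn w z ⟨_, hπ⟩ hfix
    rw [hperm, goodE6.sPerm_apply, show chevE6.reflectRoot 5 (graphE6.S.π p.1) = p.2 from refl_pi p hp] at h1
    have h2 := congrArg (tw L) (goodE6.torus_conj_xg z hs 1)
    rw [map_mul, map_mul, map_inv, hw, tw_xg hs, one_pow, goodE6.torus_conj_xg w hπ, tw_xg hs] at h2
    have h3 := goodE6.xg_injective hπ h2
    rw [mul_one, mul_one] at h3
    exact h1.trans (Units.ext (by simpa using h3))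
  have r1 := hrel (56, 35) (by simp)
  have r2 := hrel (36, 56) (by simp)
  have r3 := hrel (42, 38) (by simp)
  have r4 := hrel (37, 42) (by simp)
  have r5 := hrel (46, 46) (by simp)
  have r6 := hrel (39, 39) (by simp)
  simp only at r1 r2 r3 r4 r5 r6
  have h35 : c 35 = (c 36)⁻¹ := by
    rw [← negs.1, hcdef]; exact goodE6.torusVal_neg (by decide) z
  have h38 : c 38 = c 37 * c 36 := by
    rw [hcdef, goodE6.torusVal_add z 1 1 (funext sum_roots), zpow_one, zpow_one]
  rw [pow_two, eq_comm, mul_eq_left] at r5 r6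
  have h36 : c 36 = c 37 ^ 3 := by
    have : c 37 * c 36 = c 37 * c 37 ^ 3 := by rw [← h38, r3, r4, ← pow_mul, ← pow_succ']
    exact mul_left_cancel this
  have h15 : c 37 ^ 15 = 1 := by
    have e : c 36 * c 56 ^ 2 = 1 := by rw [← r1, h35, mul_inv_cancel]
    rw [r2, h36, ← pow_mul, ← pow_mul, ← pow_add] at e
    exact e
  have hu15 : ∀ y : Lˣ, y ^ 15 = 1 := fun y => by
    have := pow_card_eq_one (G := Lˣ) (x := y)
    rwa [Fintype.card_units, hL] at this
  have hcube : ∃ y : Lˣ, c 56 * (c 42)⁻¹ * c 37 * (c 36)⁻¹ = y ^ (3 : ℤ) := by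
    choose M hM using weights3
    refine ⟨∏ k, z k ^ M k, ?_⟩
    obtain ⟨s0, s1, s2, s3, s4, s5⟩ := simple_vals
    rw [hcdef, ← s0, ← s2, ← s4, ← s5, ← Finset.prod_zpow]
    simp only [Good.torusVal, ← Finset.prod_inv_distrib, ← Finset.prod_mul_distrib, ← zpow_neg, ← zpow_add, ← zpow_mul]
    refine Finset.prod_congr rfl fun k _ => ?_
    congr 1
    rw [mul_comm (M k), ← hM k]
    have ev : ∀ j : Fin chevE6.rank, goodE6.cartForm (k : ℕ) (goodE6.rc (chevE6.simple (j : ℕ))) =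
        goodE6.tab.cm (k : ℕ) (j : ℕ) := fun j => by
      rw [goodE6.rc_simple, goodE6.cartForm_single, one_mul]
    have e0 := ev ⟨0, by decide⟩
    have e2 := ev ⟨2, by decide⟩
    have e4 := ev ⟨4, by decide⟩
    have e5 := ev ⟨5, by decide⟩
    simp only at e0 e2 e4 e5
    rw [e0, e2, e4, e5]
    ring
  have h5 : c 37 ^ 5 = 1 := by
    obtain ⟨y, hy⟩ := hcube
    rw [r2, h36, r4] at hy
    have e : c 37 ^ 2 = y ^ (3 : ℤ) := by
      rw [← hy]
      have : (c 37 ^ 3) ^ 2 * (c 37 ^ 2)⁻¹ * c 37 * (c 37 ^ 3)⁻¹ = c 37 ^ 2 := by group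
      exact this.symm
    have e2 := congrArg (fun a : Lˣ => a ^ 5) e
    simp only [← pow_mul, ← zpow_natCast (y ^ (3 : ℤ)), ← zpow_mul] at e2
    rw [show (3 : ℤ) * ((5 : ℕ) : ℤ) = ((15 : ℕ) : ℤ) from rfl, zpow_natCast, hu15] at e2
    calc c 37 ^ 5 = c 37 ^ 15 * (c 37 ^ (2 * 5))⁻¹ := by group
      _ = 1 := by rw [h15, e2, inv_one, mul_one]
  obtain ⟨i, -, hi⟩ := (IsPrimitiveRoot.coe_units_iff.2 hu).eq_pow_of_pow_eq_one
    (show (c 37 : L) ^ 5 = 1 by rw [← Units.val_pow_eq_pow_val, h5, Units.val_one])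
  have hc37 : c 37 = u ^ i := Units.ext (by rw [Units.val_pow_eq_pow_val, hi])
  refine ⟨4 * i, ?_⟩
  rw [← torus_zP, ← map_pow]
  refine torusVal_of_simple fun j => ?_
  rw [torusVal_pow, val_zP, ← zpow_natCast, ← zpow_mul]
  obtain ⟨s0, s1, s2, s3, s4, s5⟩ := simple_vals
  obtain ⟨x0, x1, x2, x3, x4, x5⟩ := chi_simple
  have red : ∀ a b : ℤ, (5 : ℤ) ∣ a - b → u ^ a = u ^ b := fun a b hab => by
    rw [← sub_add_cancel a b, zpow_add, (hu.zpow_eq_one_iff_dvd _).2 (by exact_mod_cast hab), one_mul]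
  show c (chevE6.simple j) = _
  have hcast : ∀ n : ℕ, c 37 ^ n = u ^ ((i : ℤ) * n) := fun n => by
    rw [hc37, ← pow_mul, ← zpow_natCast]; push_cast; ring_nf
  change Fin 6 at j
  fin_cases j
  · show c (chevE6.simple 0) = u ^ (chi (chevE6.simple 0) * _)
    rw [s0, x0, r2, h36, ← pow_mul, hcast]
    exact red _ _ ⟨-2 * i, by push_cast; ring⟩
  · show c (chevE6.simple 1) = u ^ (chi (chevE6.simple 1) * _)
    rw [s1, x1, r5, zero_mul, zpow_zero]
  · show c (chevE6.simple 2) = u ^ (chi (chevE6.simple 2) * _)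
    rw [s2, x2, r4, hcast]
    exact red _ _ ⟨2 * i, by push_cast; ring⟩
  · show c (chevE6.simple 3) = u ^ (chi (chevE6.simple 3) * _)
    rw [s3, x3, r6, zero_mul, zpow_zero]
  · show c (chevE6.simple 4) = u ^ (chi (chevE6.simple 4) * _)
    rw [s4, x4, hc37, ← zpow_natCast]
    exact red _ _ ⟨i, by push_cast; ring⟩
  · show c (chevE6.simple 5) = u ^ (chi (chevE6.simple 5) * _)
    rw [s5, x5, h36, hcast]
    exact red _ _ ⟨-i, by push_cast; ring⟩

/-- The fixed elements commuting with the diagonal element of order five. -/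
theorem structure_of_commute [Fintype L] [DecidableEq L] (hL : Fintype.card L = 16) {u : Lˣ} (hu : IsPrimitiveRoot u 5)
    {m : GL chevE6.Idx L} (hm : m ∈ chevE6.group L) (hc : tP (u : L) * m = m * tP (u : L))
    (hfix : goodE6.ng 36 (1 : L) * tw L m * (goodE6.ng 36 (1 : L))⁻¹ = m) :
    ∃ k : ℕ, ∃ l ∈ sub2 L, m = tP (u : L) ^ k * l := by
  obtain ⟨w, v, d, y, hv, hd, hy, rfl⟩ := exists_standard_form goodE6 hm
  set N : GL chevE6.Idx L := goodE6.nProd w
  have hN : N ∈ chevE6.monomialSubgroup L := goodE6.nProd_mem w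
  set T := tP (u : L) with hTdef
  have hT : T ∈ chevE6.diagonalSubgroup L := goodE6.mem_diagonal.2 ⟨zP u, (torus_zP u).symm⟩
  have hv' : T * v * T⁻¹ ∈ chevE6.posUnipotent L := goodE6.conj_posUnipotent (Subgroup.mem_sup_right hT) hv
  obtain ⟨ty, ⟨hty, hye⟩, -⟩ := goodE6.posSub_normal_form (goodE6.posClosed_invSet hN) hy
  have hy' : T * y * T⁻¹ ∈ goodE6.posSub (goodE6.invSet N) := by
    rw [hye, hTdef, ← torus_zP, torus_conj_ordProd _ _ ty le_rfl]
    exact goodE6.posSub_mono (fun r _ h => h.1) (goodE6.ordProd_mem le_rfl fun r _ hr => by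
      rw [hty r (Or.inl hr), mul_zero])
  have e : (T * v * T⁻¹) * (T * d * T⁻¹ * (T * (N * T⁻¹ * N⁻¹))) * N * (T * y * T⁻¹) = v * d * N * y := by
    calc _ = T * (v * d * N * y) * T⁻¹ := by group
      _ = _ := by rw [hc, mul_inv_cancel_right]
  have hd' : T * d * T⁻¹ * (T * (N * T⁻¹ * N⁻¹)) ∈ chevE6.diagonalSubgroup L :=
    mul_mem (mul_mem (mul_mem hT hd) (inv_mem hT)) (mul_mem hT (goodE6.diagonal_normalized hN (inv_mem hT)))
  obtain ⟨-, hy2, hb⟩ := goodE6.bruhat_unique (mul_mem (Subgroup.mem_sup_left hv') (Subgroup.mem_sup_right hd'))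
    (mul_mem (Subgroup.mem_sup_left hv) (Subgroup.mem_sup_right hd)) hN hN hy' hy e
  have split : ∀ {a a' b b' : GL chevE6.Idx L}, a ∈ chevE6.posUnipotent L → a' ∈ chevE6.posUnipotent L →
      b ∈ chevE6.diagonalSubgroup L → b' ∈ chevE6.diagonalSubgroup L → a * b = a' * b' → a = a' ∧ b = b' := by
    intro a a' b b' ha ha' hb hb' hab
    have h1 := (Subgroup.eq_bot_iff_forall _).1 (goodE6.posUnipotent_inf_diagonal (F := L)) (a'⁻¹ * a)
      (Subgroup.mem_inf.2 ⟨mul_mem (inv_mem ha') ha, by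
        rw [show a'⁻¹ * a = b' * b⁻¹ from by rw [eq_mul_inv_iff_mul_eq, mul_assoc, hab, inv_mul_cancel_left]]
        exact mul_mem hb' (inv_mem hb)⟩)
    obtain rfl := (inv_mul_eq_one.1 h1).symm
    exact ⟨rfl, mul_left_cancel hab⟩
  obtain ⟨hv2, hd2⟩ := split hv' hv hd' hd (hb rfl)
  have hNT : N * T * N⁻¹ = T := by
    have h1 : T * d * T⁻¹ = d := by rw [goodE6.diagonal_comm hT hd, mul_inv_cancel_right]
    rw [h1] at hd2
    have h2 : T * (N * T⁻¹ * N⁻¹) = 1 := mul_eq_left.1 hd2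
    have h3 : N * T⁻¹ * N⁻¹ = T⁻¹ := eq_inv_of_mul_eq_one_right h2
    have h4 := congrArg (·⁻¹) h3
    simpa [mul_assoc] using h4
  have hres : ∀ s, res (goodE6.perm N s : ℕ) = res (s : ℕ) := by
    intro s
    have h := torusVal_conj hN (zP u) (zP u) s (by rw [torus_zP]; exact hNT)
    rw [val_zP, val_zP] at h
    have h2 : u ^ (chi (goodE6.perm N s : ℕ) - chi (s : ℕ)) = 1 := by rw [zpow_sub, h, mul_inv_cancel]
    rw [hu.zpow_eq_one_iff_dvd] at h2
    exact Int.emod_eq_emod_iff_emod_sub_eq_zero.2 (Int.emod_eq_zero_of_dvd (by exact_mod_cast h2))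
  obtain ⟨n', h, hn'2, hn', hh, hNe⟩ := stab_cases hN hres
  obtain ⟨tv, htv1, htv, hve⟩ := fixed_support (L := L) hu goodE6.posClosed_univ (show v ∈ goodE6.posSub Set.univ by rw [← goodE6.posUnipotent_eq]; exact hv) hv2
  obtain ⟨tu, htu1, htu, hue⟩ := fixed_support hu (goodE6.posClosed_invSet hN) hy hy2
  have hd1 : d * (n' * h * n'⁻¹) ∈ chevE6.diagonalSubgroup L := mul_mem hd (goodE6.diagonal_normalized hn' hh)
  set d1 := d * (n' * h * n'⁻¹) with hd1def
  have hm' : v * d * N * y = v * d1 * n' * y := by rw [hNe, hd1def]; group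
  rw [hm'] at hfix ⊢
  set n6 := goodE6.ng 36 (1 : L) with hn6
  have hn6m : n6 ∈ sub L [36, 35] := by
    rw [hn6, Good.ng, negs.1]
    exact mul_mem (mul_mem (xg_mem_sub (by simp) _) (xg_mem_sub (by simp) _)) (xg_mem_sub (by simp) _)
  have hcomm : ∀ {a}, a ∈ sub L roots3 → n6 * a * n6⁻¹ = a := fun ha => by
    rw [(commute_sub apart_63 hn6m ha).eq, mul_inv_cancel_right]
  have tv' := tw_ordProd htv
  have tu' := tw_ordProd htu
  have ev : n6 * tw L v * n6⁻¹ = tw L v := hcomm (by rw [hve, tv'.1]; exact tv'.2)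
  have eu : n6 * tw L y * n6⁻¹ = tw L y := hcomm (by rw [hue, tu'.1]; exact tu'.2)
  have en : n6 * tw L n' * n6⁻¹ = n' := by rw [tw_sub2 hn'2]; exact hcomm (sub2_le hn'2)
  have hd1' : n6 * tw L d1 * n6⁻¹ ∈ chevE6.diagonalSubgroup L := by
    refine goodE6.diagonal_normalized (goodE6.ng_mem_N (by decide) one_ne_zero) ?_
    obtain ⟨z, hz⟩ := goodE6.mem_diagonal.1 hd1
    obtain ⟨w', hw'⟩ : ∃ w' : Fin chevE6.rank → Lˣ, ∀ k, w' (graphE6.ρF k) =
        Units.map (frobenius L 2).toMonoidHom (z k) := by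
      let e := Equiv.ofBijective graphE6.ρF (Finite.injective_iff_bijective.1 (graphE6.ρF_injective okE6))
      refine ⟨fun k => Units.map (frobenius L 2).toMonoidHom (z (e.symm k)), fun k => ?_⟩
      show Units.map (frobenius L 2).toMonoidHom (z (e.symm (e k))) = _
      rw [e.symm_apply_apply]
    exact goodE6.mem_diagonal.2 ⟨w', by rw [hz]; exact graphE6.twist_torus okE6 _ z w' hw'⟩
  have e2 : tw L v * (n6 * tw L d1 * n6⁻¹) * n' * tw L y = v * d1 * n' * y := by
    calc _ = (n6 * tw L v * n6⁻¹) * (n6 * tw L d1 * n6⁻¹) * (n6 * tw L n' * n6⁻¹) * (n6 * tw L y * n6⁻¹) := by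
          rw [ev, eu, en]
      _ = n6 * tw L (v * d1 * n' * y) * n6⁻¹ := by simp only [map_mul]; group
      _ = _ := hfix
  have hinv : goodE6.invSet N = goodE6.invSet n' := by
    ext r
    simp only [Good.invSet, Set.mem_setOf_eq]
    rw [hNe, goodE6.perm_mul hn' (Subgroup.mem_sup_left hh), goodE6.perm_diagonal hh, mul_one]
  have hyN : y ∈ goodE6.posSub (goodE6.invSet n') := hinv ▸ hy
  have hty' : tw L y ∈ goodE6.posSub (goodE6.invSet n') := by
    rw [hue, tu'.1, ← hinv]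
    exact goodE6.posSub_mono (fun r _ h => h.1) (goodE6.ordProd_mem le_rfl fun r _ hr => by
      rw [htu1 r hr, zero_pow two_ne_zero])
  have htv' : tw L v ∈ chevE6.posUnipotent L := by
    rw [hve, tv'.1, goodE6.posUnipotent_eq]
    exact goodE6.posSub_mono (fun r _ h => h.1) (goodE6.ordProd_mem le_rfl fun r _ hr => absurd trivial hr)
  obtain ⟨-, huu, hbb⟩ := goodE6.bruhat_unique
    (mul_mem (Subgroup.mem_sup_left htv') (Subgroup.mem_sup_right hd1'))
    (mul_mem (Subgroup.mem_sup_left hv) (Subgroup.mem_sup_right hd1)) hn' hn' hty' hyN e2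
  obtain ⟨hvv, hdd⟩ := split htv' hv hd1' hd1 (hbb rfl)
  obtain ⟨k, hk⟩ := diag_fixed hL hu hd1 hdd
  refine ⟨k, v * n' * y, mul_mem (mul_mem ?_ hn'2) ?_, ?_⟩
  · rw [hve] at hvv ⊢; exact fixed_mem_sub2 htv hvv
  · rw [hue] at huu ⊢; exact fixed_mem_sub2 htu huu
  · have hcv : Commute T v := by
      show T * v = v * T
      conv_rhs => rw [← hv2]
      group
    rw [hk, (hcv.pow_left k).eq.symm]
    simp only [mul_assoc]

end Main

end Cfsg.Agent.H46.E6O5
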