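import Cfsg.Agent.H46.E6O5.Check
import Cfsg.Agent.H46.TypeE6
import Cfsg.Agent.H46.Elements
import Cfsg.Agent.H65.Chev.FieldFixed

/-!
Products of root elements with parameter one, read off their rows over the field with two elements.
-/

set_option autoImplicit false

namespace Cfsg.Agent.H46.E6O5

open Cfsg.Lie Cfsg.Agent.H55.Tits Cfsg.Agent.H65
open scoped Matrix MatrixGroups

variable (K : Type*) [Field K]

/-- A product of root elements with parameter one. -/
noncomputable def gp (l : List ℕ) : GL chevE6.Idx K := (l.map fun r => goodE6.xg r (1 : K)).prod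

variable {K}

theorem gp_singleton (r : ℕ) : gp K [r] = goodE6.xg r (1 : K) := by simp [gp]

theorem gp_append (l m : List ℕ) : gp K (l ++ m) = gp K l * gp K m := by simp [gp]

theorem gp_cons (r : ℕ) (l : List ℕ) : gp K (r :: l) = goodE6.xg r (1 : K) * gp K l := by simp [gp]

theorem rowsOf_xg {r : ℕ} (hr : r ∈ roots) :
    RowsOf idx (goodE6.xg r (1 : ZMod 2) : Matrix chevE6.Idx chevE6.Idx (ZMod 2)) (rootRows r) := by
  obtain ⟨hlt, hlen⟩ := root_lt r hr
  refine ⟨hlen, fun i j => ?_⟩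
  have h := root_check ⟨r, hlt⟩ hr (idx i) (idx j)
  rw [Equiv.symm_apply_apply, Equiv.symm_apply_apply] at h
  rw [goodE6.coe_xg, ChevalleyDatum.x, dif_pos hlt]
  exact h

theorem rowsOf_gp : ∀ l : List ℕ, (∀ r ∈ l, r ∈ roots) →
    RowsOf idx (gp (ZMod 2) l : Matrix chevE6.Idx chevE6.Idx (ZMod 2)) (pr l)
  | [], _ => by simpa [gp, pr] using (rowsOf_one (e := idx))
  | [r], h => by rw [gp_singleton]; exact rowsOf_xg (h r List.mem_cons_self)
  | r :: s :: l, h => by
    rw [gp_cons, Units.val_mul]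
    exact (rowsOf_xg (h r List.mem_cons_self)).mul
      (rowsOf_gp (s :: l) fun u hu => h u (List.mem_cons_of_mem _ hu))

theorem rowsOf_pow {g : GL chevE6.Idx (ZMod 2)} {R : List ℕ}
    (h : RowsOf idx (g : Matrix chevE6.Idx chevE6.Idx (ZMod 2)) R) (k : ℕ) :
    RowsOf idx ((g ^ k : GL chevE6.Idx (ZMod 2)) : Matrix chevE6.Idx chevE6.Idx (ZMod 2)) (powRows 78 R k) := by
  rw [Units.val_pow_eq_pow_val]
  exact h.pow k

theorem rowsOf_mul {g h : GL chevE6.Idx (ZMod 2)} {R S : List ℕ}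
    (hg : RowsOf idx (g : Matrix chevE6.Idx chevE6.Idx (ZMod 2)) R)
    (hh : RowsOf idx (h : Matrix chevE6.Idx chevE6.Idx (ZMod 2)) S) :
    RowsOf idx ((g * h : GL chevE6.Idx (ZMod 2)) : Matrix chevE6.Idx chevE6.Idx (ZMod 2)) (mulRows R S) := by
  rw [Units.val_mul]
  exact hg.mul hh

theorem eq_of_rows {g h : GL chevE6.Idx (ZMod 2)} {R S : List ℕ}
    (hg : RowsOf idx (g : Matrix chevE6.Idx chevE6.Idx (ZMod 2)) R)
    (hh : RowsOf idx (h : Matrix chevE6.Idx chevE6.Idx (ZMod 2)) S) (e : R = S) : g = h := by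
  subst e
  exact Units.ext (hg.ext hh)

variable (K) [CharP K 2]

/-- The inclusion of the field with two elements. -/
noncomputable def lift : GL chevE6.Idx (ZMod 2) →* GL chevE6.Idx K :=
  mapGL chevE6 (ZMod.castHom (dvd_refl 2) K)

variable {K}

theorem lift_gp (l : List ℕ) : lift K (gp (ZMod 2) l) = gp K l := by
  simp only [lift, gp, map_list_prod, List.map_map, Function.comp_def, mapGL_xg goodE6, map_one]

theorem gp_eq {l m : List ℕ} (hl : ∀ r ∈ l, r ∈ roots) (hm : ∀ r ∈ m, r ∈ roots) (e : pr l = pr m) :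
    gp K l = gp K m := by
  rw [← lift_gp l, ← lift_gp m, eq_of_rows (rowsOf_gp l hl) (rowsOf_gp m hm) e]

end Cfsg.Agent.H46.E6O5
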