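import Cfsg.Agent.H46.E6O5.CheckA3
import Cfsg.Agent.H46.E6O5.Rows
import Cfsg.Agent.H46.E6O5.Cent
import Cfsg.Agent.H63.GLFourTwo
import Cfsg.Agent.H70.StPres.Inject

/-!
The twelve long root elements generate a copy of the alternating group of degree eight.
-/

set_option autoImplicit false
set_option maxHeartbeats 400000

namespace Cfsg.Agent.H46.E6O5

open Cfsg.Lie Cfsg.Agent.H55.Tits Cfsg.Agent.H70.StPres
open scoped Matrix MatrixGroups commutatorElement

variable (K : Type*) [Field K] [CharP K 2]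

/-- A root element of the subsystem. -/
noncomputable def xr (i j : Fin 4) (t : ZMod 2) : GL chevE6.Idx K :=
  goodE6.xg (rt i j) (ZMod.castHom (dvd_refl 2) K t)

/-- A pair of a root element and the corresponding transvection. -/
noncomputable def xp (i j : Fin 4) (t : ZMod 2) :
    GL chevE6.Idx K × Matrix.SpecialLinearGroup (Fin 4) (ZMod 2) :=
  (xr K i j t, Cfsg.Agent.H64.SLCover.rx i j t)

/-- The group of pairs. -/
noncomputable def pairs : Subgroup (GL chevE6.Idx K × Matrix.SpecialLinearGroup (Fin 4) (ZMod 2)) :=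
  Subgroup.closure {g | ∃ i j t, i ≠ j ∧ g = xp K i j t}

theorem zmod_two (t : ZMod 2) : t = 0 ∨ t = 1 := by revert t; decide

theorem rt_roots : ∀ i j : Fin 4, i ≠ j → rt i j ∈ roots ∧ rt i j ∈ roots3 := by decide +kernel

theorem rt_surj : ∀ r ∈ roots3, ∃ i j : Fin 4, i ≠ j ∧ rt i j = r := by decide +kernel

variable {K}

theorem xr_zero (i j : Fin 4) : xr K i j 0 = 1 := by rw [xr, map_zero, goodE6.xg_zero]

theorem xr_one (i j : Fin 4) : xr K i j 1 = gp K [rt i j] := by rw [xr, map_one, gp_singleton]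

theorem xr_add (i j : Fin 4) (s t : ZMod 2) : xr K i j (s + t) = xr K i j s * xr K i j t := by
  rw [xr, map_add, ← goodE6.xg_add]
  rfl

theorem pr_cons2 (a : ℕ) (l : List ℕ) (b : ℕ) : pr (a :: b :: l) = mulRows (rootRows a) (pr (b :: l)) := by
  rw [pr]

theorem xr_commute {i j k l : Fin 4} (hij : i ≠ j) (hkl : k ≠ l) (hjk : j ≠ k) (hil : i ≠ l) (s t : ZMod 2) :
    Commute (xr K i j s) (xr K k l t) := by
  rcases zmod_two s with rfl | rfl
  · rw [xr_zero]; exact Commute.one_left _
  rcases zmod_two t with rfl | rfl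
  · rw [xr_zero]; exact Commute.one_right _
  rw [xr_one, xr_one]
  show gp K [rt i j] * gp K [rt k l] = gp K [rt k l] * gp K [rt i j]
  rw [← gp_append, ← gp_append]
  have h1 := (rt_roots i j hij).1
  have h2 := (rt_roots k l hkl).1
  refine gp_eq (fun r hr => ?_) (fun r hr => ?_) ?_
  · simp at hr; rcases hr with rfl | rfl <;> assumption
  · simp at hr; rcases hr with rfl | rfl <;> assumption
  · simpa [pr] using rt_commute i j k l hij hkl hjk hil

theorem xr_bracket {i j k : Fin 4} (hij : i ≠ j) (hik : i ≠ k) (hkj : k ≠ j) (s t : ZMod 2) :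
    ⁅xr K i k s, xr K k j t⁆ = xr K i j (s * t) := by
  rcases zmod_two s with rfl | rfl
  · rw [xr_zero, zero_mul, xr_zero, commutatorElement_one_left]
  rcases zmod_two t with rfl | rfl
  · rw [xr_zero, mul_zero, xr_zero, commutatorElement_one_right]
  rw [mul_one, commutatorElement_def]
  have e : ∀ a b : Fin 4, (xr K a b 1)⁻¹ = xr K a b 1 := fun a b => by
    refine inv_eq_of_mul_eq_one_right ?_
    rw [← xr_add, show (1 : ZMod 2) + 1 = 0 from rfl, xr_zero]
  rw [e, e, xr_one, xr_one, xr_one, ← gp_append, ← gp_append, ← gp_append]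
  have h1 := (rt_roots i k hik).1
  have h2 := (rt_roots k j hkj).1
  have h3 := (rt_roots i j hij).1
  refine gp_eq (fun r hr => ?_) (fun r hr => ?_) ?_
  · simp at hr; rcases hr with rfl | rfl | rfl | rfl <;> assumption
  · simp at hr; subst hr; assumption
  · simpa [pr] using rt_bracket i j k hij hik hkj

theorem xp_mem {i j : Fin 4} (h : i ≠ j) (t : ZMod 2) : xp K i j t ∈ pairs K :=
  Subgroup.subset_closure ⟨i, j, t, h, rfl⟩

variable (K)

/-- The generators in the group of pairs. -/
noncomputable def xPair (i j : Fin 4) (t : ZMod 2) : ↥(pairs K) :=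
  if h : i ≠ j then ⟨xp K i j t, xp_mem h t⟩ else 1

theorem coe_xPair {i j : Fin 4} (h : i ≠ j) (t : ZMod 2) :
    (xPair K i j t : GL chevE6.Idx K × Matrix.SpecialLinearGroup (Fin 4) (ZMod 2)) = xp K i j t := by
  rw [xPair, dif_pos h]

/-- The Steinberg relations in the group of pairs. -/
noncomputable def steinberg : St ↥(pairs K) 4 (ZMod 2) where
  σ := (MonoidHom.snd _ _).comp (pairs K).subtype
  hn := by norm_num
  X := xPair K
  σ_X {i j} h t := by simp [coe_xPair K h, xp]
  X_add {i j} h s t := by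
    refine Subtype.ext ?_
    rw [Subgroup.coe_mul, coe_xPair K h, coe_xPair K h, coe_xPair K h]
    exact Prod.ext (xr_add i j s t) (Cfsg.Agent.H64.SLCover.rx_add i j s t)
  X_commute {i j k l} hij hkl hjk hil s t := by
    refine Subtype.ext ?_
    rw [Subgroup.coe_mul, Subgroup.coe_mul, coe_xPair K hij, coe_xPair K hkl]
    exact Prod.ext (xr_commute hij hkl hjk hil s t).eq (Cfsg.Agent.H64.SLCover.rx_commute hjk hil s t).eq
  X_bracket {i j k} hij hik hkj s t := by
    refine Subtype.ext ?_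
    simp only [commutatorElement_def, Subgroup.coe_mul, Subgroup.coe_inv, coe_xPair K hik, coe_xPair K hkj,
      coe_xPair K hij]
    refine Prod.ext ?_ ?_
    · exact (commutatorElement_def _ _).symm.trans (xr_bracket hij hik hkj s t)
    · exact (commutatorElement_def _ _).symm.trans (Cfsg.Agent.H64.SLCover.rx_bracket hik hkj hij s t)

theorem eq_one_of_ne_zero {d : ZMod 2} (h : d ≠ 0) : d = 1 := (zmod_two d).resolve_left h

theorem toGL_two_bijective : Function.Bijective (Matrix.SpecialLinearGroup.toGL :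
    Matrix.SpecialLinearGroup (Fin 4) (ZMod 2) →* GL (Fin 4) (ZMod 2)) :=
  ⟨fun _ _ h => Subtype.ext (congrArg Units.val h :),
    fun g => ⟨⟨(g : Matrix (Fin 4) (Fin 4) (ZMod 2)), eq_one_of_ne_zero (Matrix.GeneralLinearGroup.det g).ne_zero⟩,
      Units.ext (Matrix.SpecialLinearGroup.coe_GL_coe_matrix _)⟩⟩

/-- A copy of A₈. -/
theorem exists_altHom : ∃ ψ : ↥(alternatingGroup (Fin 8)) →* GL chevE6.Idx K,
    Function.Injective ψ ∧ ψ.range = sub2 K := by
  classical
  obtain ⟨e⟩ := Cfsg.Agent.H63.nonempty_mulEquiv_gl_four_two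
  let C := steinberg K
  have hgen : ∀ g : ↥(pairs K), g ∈ C.gen 0 := by
    rintro ⟨g, hg⟩
    induction hg using Subgroup.closure_induction with
    | mem x hx =>
      obtain ⟨i, j, t, hij, rfl⟩ := hx
      have e : (⟨xp K i j t, xp_mem hij t⟩ : ↥(pairs K)) = C.X i j t := Subtype.ext (coe_xPair K hij t).symm
      exact Subgroup.subset_closure ⟨i, j, t, Nat.zero_le _, Nat.zero_le _, hij, e⟩
    | one => exact one_mem _
    | mul a b ha hb iha ihb => exact mul_mem (iha) (ihb)
    | inv a ha iha => exact inv_mem iha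
  have hinj : Function.Injective C.σ := (injective_iff_map_eq_one C.σ).2 fun g hg =>
    C.gen_injective 4 0 le_rfl g (hgen g) hg
  have hsurj : Function.Surjective C.σ := by
    rw [← MonoidHom.range_eq_top]
    refine Cfsg.Agent.H1.SL_eq_top_of_transvection_mem _ fun i j hij c => ⟨C.X i j c, ?_⟩
    rw [C.σ_X hij, Cfsg.Agent.H64.SLCover.rx_of_ne hij]
  let eσ := MulEquiv.ofBijective C.σ ⟨hinj, hsurj⟩
  let eG := MulEquiv.ofBijective (Matrix.SpecialLinearGroup.toGL :
      Matrix.SpecialLinearGroup (Fin 4) (ZMod 2) →* GL (Fin 4) (ZMod 2)) toGL_two_bijective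
  let eA : ↥(alternatingGroup (Fin 8)) ≃* ↥(pairs K) := e.symm.trans (eG.symm.trans eσ.symm)
  let π : ↥(pairs K) →* GL chevE6.Idx K := (MonoidHom.fst _ _).comp (pairs K).subtype
  have hπ : π.range = sub2 K := by
    refine le_antisymm ?_ ((Subgroup.closure_le _).2 ?_)
    · rintro _ ⟨⟨g, hg⟩, rfl⟩
      show g.1 ∈ sub2 K
      induction hg using Subgroup.closure_induction with
      | mem x hx =>
        obtain ⟨i, j, t, hij, rfl⟩ := hx
        show xr K i j t ∈ _
        rcases zmod_two t with rfl | rfl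
        · rw [xr_zero]; exact one_mem _
        · rw [xr_one, gp_singleton]
          exact Subgroup.subset_closure ⟨_, (rt_roots i j hij).2, rfl⟩
      | one => exact one_mem _
      | mul a b _ _ iha ihb => exact mul_mem iha ihb
      | inv a _ iha => exact inv_mem iha
    · rintro _ ⟨r, hr, rfl⟩
      obtain ⟨i, j, hij, rfl⟩ := rt_surj r hr
      exact ⟨⟨xp K i j 1, xp_mem hij 1⟩, show xr K i j 1 = _ by rw [xr_one, gp_singleton]⟩
  refine ⟨π.comp eA.toMonoidHom, ?_, ?_⟩
  · have hsimple : IsSimpleGroup ↥(alternatingGroup (Fin 8)) := alternatingGroup.isSimpleGroup (by simp)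
    rcases Subgroup.Normal.eq_bot_or_eq_top (inferInstance : (π.comp eA.toMonoidHom).ker.Normal) with h | h
    · exact (MonoidHom.ker_eq_bot_iff _).1 h
    · exfalso
      have h1 : π ⟨xp K 0 1 1, xp_mem (by decide) 1⟩ = 1 := by
        have hh : eA.symm ⟨xp K 0 1 1, xp_mem (by decide) 1⟩ ∈ (π.comp eA.toMonoidHom).ker := h ▸ Subgroup.mem_top _
        rw [MonoidHom.mem_ker, MonoidHom.comp_apply, MulEquiv.coe_toMonoidHom, MulEquiv.apply_symm_apply] at hh
        exact hh
      change xr K 0 1 1 = 1 at h1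
      rw [xr, map_one, goodE6.xg_eq_one_iff (by decide)] at h1
      exact one_ne_zero h1
  · rw [← hπ]
    ext x
    refine ⟨fun ⟨a, ha⟩ => ⟨eA a, ha⟩, fun ⟨a, ha⟩ => ⟨eA.symm a, ?_⟩⟩
    rw [MonoidHom.comp_apply, MulEquiv.coe_toMonoidHom, MulEquiv.apply_symm_apply, ha]

end Cfsg.Agent.H46.E6O5
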