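import Cfsg.Agent.H55.Tits.Bits
import Cfsg.Agent.H46.E6O5.Data
import Cfsg.Prelude.Def_LieTwisted

/-!
Evaluations over the field with two elements in type E₆.
-/

set_option autoImplicit false
set_option maxRecDepth 100000

namespace Cfsg.Agent.H46.E6O5

open Cfsg.Lie Cfsg.Agent.H55.Tits

/-- Coordinates. -/
def idx : chevE6.Idx ≃ Fin 78 := finSumFinEquiv

/-- The roots in use. -/
def roots : List ℕ :=
  [56, 36, 15, 35, 42, 37, 29, 34, 39, 32, 46, 25, 44, 27, 60, 11, 0, 71, 1, 70, 2, 69, 47, 24, 53, 18]

theorem root_check : ∀ r : Fin 72, r.val ∈ roots → ∀ k l : Fin 78,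
    chevE6.xMat (ZMod 2) r 1 (idx.symm k) (idx.symm l) = bit ((rootRows r.val).getD k.val 0) l.val := by
  decide +kernel

theorem root_lt : ∀ r ∈ roots, r < chevE6.nroots ∧ (rootRows r).length = 78 := by decide +kernel

/-- Rows of a product of root elements. -/
noncomputable def pr : List ℕ → List ℕ
  | [] => oneRows 78
  | [r] => rootRows r
  | r :: s :: l => mulRows (rootRows r) (pr (s :: l))

/-- The orbit product for the pair of the first and sixth simple roots, as a word. -/
def w16 : List ℕ := [56, 36, 15, 35, 56, 36]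

/-- The orbit product for the pair of the third and fifth simple roots, as a word. -/
def w35 : List ℕ := [42, 37, 29, 34, 42, 37]

/-- Rows of a word in the letters. -/
noncomputable def lw (w : List ℕ) : List ℕ := pr (w.map fun i => letters.getD i 0)

theorem weyl_steps : pr (w35 ++ [39] ++ w35) = rootRows 44 ∧ pr (w35 ++ [32] ++ w35) = rootRows 27 ∧
    pr (w16 ++ [44] ++ w16) = rootRows 60 ∧ pr (w16 ++ [27] ++ w16) = rootRows 11 := by decide +kernel

theorem bracket_steps : ∀ p ∈ [(47, 46, 39), (53, 47, 44), (70, 53, 60), (71, 70, 46), (69, 70, 32), (24, 25, 32),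
    (18, 24, 27), (1, 18, 11), (0, 1, 25), (2, 1, 39)], pr [p.2.1, p.2.2, p.2.1, p.2.2] = rootRows p.1 := by
  decide +kernel

theorem involutions : ∀ r ∈ roots, mulRows (rootRows r) (rootRows r) = oneRows 78 := by decide +kernel

/-- Rows of the first element of order five. -/
noncomputable def rowsA : List ℕ := lw wordA

/-- Rows of the second element of order five. -/
noncomputable def rowsB : List ℕ := lw wordB

/-- Rows of a product of powers. -/
noncomputable def rowsAB (i j : ℕ) : List ℕ := mulRows (powRows 78 rowsA i) (powRows 78 rowsB j)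

/-- Rows of a conjugating element. -/
noncomputable def rowsC (s : List ℕ) (k : ℕ) : List ℕ :=
  mulRows (lw s) (powRows 78 (pr (w16 ++ w35)) k)

theorem order_five : rowsAB 5 0 = oneRows 78 ∧ rowsAB 0 5 = oneRows 78 ∧
    mulRows rowsA rowsB = mulRows rowsB rowsA := by decide +kernel

theorem order_five_ne : (rowsA.getD 0 0).testBit 0 = false := by decide +kernel

theorem witness_spec : ∀ e ∈ witness, mulRows (rowsC e.2.2.1 e.2.2.2) rowsA =
    mulRows (rowsAB e.1 e.2.1) (rowsC e.2.2.1 e.2.2.2) := by decide +kernel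

theorem witness_all : ∀ i j : Fin 5, (i.val, j.val) ≠ (0, 0) →
    ∃ e ∈ witness, e.1 = i.val ∧ e.2.1 = j.val := by decide +kernel

end Cfsg.Agent.H46.E6O5
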