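import Cfsg.Agent.H55.Tits.Bits
import Cfsg.Agent.H46.E6O5.Data

/-!
The Steinberg relations of type A₃ for twelve long roots, by evaluation.
-/

set_option autoImplicit false
set_option maxRecDepth 100000

namespace Cfsg.Agent.H46.E6O5

open Cfsg.Agent.H55.Tits

/-- The root of a pair of letters of the subsystem of type A₃. -/
def rt (i j : Fin 4) : ℕ :=
  ([[0, 0, 1, 2], [71, 0, 46, 47], [70, 25, 0, 39], [69, 24, 32, 0]].getD i.val []).getD j.val 0

theorem rt_commute : ∀ i j k l : Fin 4, i ≠ j → k ≠ l → j ≠ k → i ≠ l →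
    mulRows (rootRows (rt i j)) (rootRows (rt k l)) = mulRows (rootRows (rt k l)) (rootRows (rt i j)) := by
  decide +kernel

theorem rt_bracket : ∀ i j k : Fin 4, i ≠ j → i ≠ k → k ≠ j →
    mulRows (rootRows (rt i k)) (mulRows (rootRows (rt k j)) (mulRows (rootRows (rt i k)) (rootRows (rt k j)))) =
      rootRows (rt i j) := by
  decide +kernel

end Cfsg.Agent.H46.E6O5
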