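import Cfsg.Agent.H46.E6O5.Rows
import Cfsg.Agent.H46.TwistE6
import Cfsg.Agent.H46.TwistOrder

/-!
A subgroup of order 25 of ²E₆(2) with all its nontrivial elements conjugate; every element of order five is
conjugate to one of them.
-/

set_option autoImplicit false

namespace Cfsg.Agent.H46.E6O5

open Cfsg.Lie Cfsg.Agent.H55.Tits
open scoped Matrix MatrixGroups

variable {K : Type*} [Field K]

theorem gen_mem_one {r : ℕ} (hr : r ∈ [e6p2, e6m2, e6p4, e6m4]) :
    goodE6.xg r (1 : K) ∈ twistedE6 K 2 :=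
  Subgroup.subset_closure ⟨[(r, (1 : K))], Or.inl ⟨1, one_pow _, r, hr, rfl⟩, (word_one goodE6 ..).2 rfl⟩

theorem gen_mem_two {r s : ℕ} (h : (r, s) ∈ [(e6p1, e6p6), (e6m1, e6m6), (e6p3, e6p5), (e6m3, e6m5)]) :
    goodE6.xg r (1 : K) * goodE6.xg s (1 : K) ∈ twistedE6 K 2 :=
  Subgroup.subset_closure ⟨[(r, (1 : K)), (s, (1 : K) ^ 2)], Or.inr ⟨1, (r, s), h, rfl⟩,
    (word_two goodE6 ..).2 (by rw [one_pow])⟩

theorem w16_mem : gp K w16 ∈ twistedE6 K 2 := by
  have h1 := gen_mem_two (K := K) (r := e6p1) (s := e6p6) (by simp)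
  have h2 := gen_mem_two (K := K) (r := e6m1) (s := e6m6) (by simp)
  have : gp K w16 = goodE6.xg e6p1 1 * goodE6.xg e6p6 1 * (goodE6.xg e6m1 1 * goodE6.xg e6m6 1) *
      (goodE6.xg e6p1 1 * goodE6.xg e6p6 1) := by simp [gp, w16, e6p1, e6p6, e6m1, e6m6, mul_assoc]
  rw [this]
  exact mul_mem (mul_mem h1 h2) h1

theorem w35_mem : gp K w35 ∈ twistedE6 K 2 := by
  have h1 := gen_mem_two (K := K) (r := e6p3) (s := e6p5) (by simp)
  have h2 := gen_mem_two (K := K) (r := e6m3) (s := e6m5) (by simp)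
  have : gp K w35 = goodE6.xg e6p3 1 * goodE6.xg e6p5 1 * (goodE6.xg e6m3 1 * goodE6.xg e6m5 1) *
      (goodE6.xg e6p3 1 * goodE6.xg e6p5 1) := by simp [gp, w35, e6p3, e6p5, e6m3, e6m5, mul_assoc]
  rw [this]
  exact mul_mem (mul_mem h1 h2) h1

variable [CharP K 2]

theorem letters_mem : ∀ r ∈ letters, goodE6.xg r (1 : K) ∈ twistedE6 K 2 := by
  obtain ⟨s1, s2, s3, s4⟩ := weyl_steps
  have h39 := gen_mem_one (K := K) (r := 39) (by simp [e6p4])
  have h32 := gen_mem_one (K := K) (r := 32) (by simp [e6m4])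
  have conj : ∀ {w : List ℕ} {r s : ℕ}, gp K w ∈ twistedE6 K 2 → (∀ u ∈ w ++ [r] ++ w, u ∈ roots) →
      s ∈ roots → pr (w ++ [r] ++ w) = rootRows s → goodE6.xg r (1 : K) ∈ twistedE6 K 2 →
      goodE6.xg s (1 : K) ∈ twistedE6 K 2 := by
    intro w r s hw hl hs e hr
    rw [← gp_singleton s, ← gp_eq hl (m := [s]) (by simpa using hs) e, gp_append, gp_append, gp_singleton]
    exact mul_mem (mul_mem hw hr) hw
  have h44 := conj w35_mem (by decide) (by decide) s1 h39
  have h27 := conj w35_mem (by decide) (by decide) s2 h32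
  have h60 := conj w16_mem (by decide) (by decide) s3 h44
  have h11 := conj w16_mem (by decide) (by decide) s4 h27
  intro r hr
  simp only [letters, List.mem_cons, List.not_mem_nil, or_false] at hr
  rcases hr with rfl | rfl | rfl | rfl | rfl | rfl | rfl | rfl
  · exact gen_mem_one (by simp [e6p2])
  · exact gen_mem_one (by simp [e6m2])
  · exact h39
  · exact h32
  · exact h60
  · exact h11
  · exact h44
  · exact h27

/-- The word in root elements of a word in the letters. -/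
def lroots (w : List ℕ) : List ℕ := w.map fun i => letters.getD i 0

theorem word_lt : (∀ i ∈ wordA, i < 8) ∧ (∀ i ∈ wordB, i < 8) ∧
    ∀ e ∈ witness, ∀ i ∈ e.2.2.1, i < 8 := by decide +kernel

theorem lroots_mem {w : List ℕ} (hw : ∀ i ∈ w, i < 8) :
    (∀ r ∈ lroots w, r ∈ roots) ∧ gp K (lroots w) ∈ twistedE6 K 2 := by
  have hl : ∀ r ∈ lroots w, r ∈ letters := by
    intro r hr
    obtain ⟨i, hi, rfl⟩ := List.mem_map.1 hr
    rw [List.getD_eq_getElem _ _ (hw i hi)]
    exact List.getElem_mem _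
  refine ⟨fun r hr => (by decide : ∀ r ∈ letters, r ∈ roots) r (hl r hr), Subgroup.list_prod_mem _ fun g hg => ?_⟩
  obtain ⟨r, hr, rfl⟩ := List.mem_map.1 hg
  exact letters_mem r (hl r hr)

/-- The first element of order five. -/
noncomputable def elA (K : Type*) [Field K] [CharP K 2] : ↥(twistedE6 K 2) :=
  ⟨gp K (lroots wordA), (lroots_mem word_lt.1).2⟩

/-- The second element of order five. -/
noncomputable def elB (K : Type*) [Field K] [CharP K 2] : ↥(twistedE6 K 2) :=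
  ⟨gp K (lroots wordB), (lroots_mem word_lt.2.1).2⟩

theorem bits_ab {i j : ℕ} :
    RowsOf idx ((gp (ZMod 2) (lroots wordA) ^ i * gp (ZMod 2) (lroots wordB) ^ j : GL chevE6.Idx (ZMod 2)) :
      Matrix chevE6.Idx chevE6.Idx (ZMod 2)) (rowsAB i j) :=
  rowsOf_mul (rowsOf_pow (rowsOf_gp _ (lroots_mem (K := ZMod 2) word_lt.1).1) i)
    (rowsOf_pow (rowsOf_gp _ (lroots_mem (K := ZMod 2) word_lt.2.1).1) j)

theorem relations : elA K ^ 5 = 1 ∧ elB K ^ 5 = 1 ∧ Commute (elA K) (elB K) ∧ elA K ≠ 1 := by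
  obtain ⟨h1, h2, h3⟩ := order_five
  have hA := rowsOf_gp (lroots wordA) (lroots_mem (K := ZMod 2) word_lt.1).1
  have hB := rowsOf_gp (lroots wordB) (lroots_mem (K := ZMod 2) word_lt.2.1).1
  have a5 := eq_of_rows (h := 1) bits_ab (rowsOf_one (e := idx)) h1
  have b5 := eq_of_rows (h := 1) bits_ab (rowsOf_one (e := idx)) h2
  have ab := eq_of_rows (rowsOf_mul hA hB) (rowsOf_mul hB hA) h3
  have hne : gp (ZMod 2) (lroots wordA) ≠ 1 := by
    intro e
    rw [e] at hA
    have x := hA.2 (idx.symm ⟨0, by norm_num⟩) (idx.symm ⟨0, by norm_num⟩)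
    rw [Units.val_one, Matrix.one_apply_eq] at x
    simp only [Equiv.apply_symm_apply, bit] at x
    rw [show (pr (lroots wordA)).getD 0 0 = rowsA.getD 0 0 from rfl, order_five_ne] at x
    exact one_ne_zero (x.trans (if_neg Bool.false_ne_true))
  simp only [pow_zero, mul_one, one_mul] at a5 b5
  refine ⟨?_, ?_, ?_, ?_⟩
  · apply Subtype.ext
    rw [SubgroupClass.coe_pow]
    show gp K _ ^ 5 = 1
    rw [← lift_gp (K := K) (lroots wordA), ← map_pow, a5, map_one]
  · apply Subtype.ext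
    rw [SubgroupClass.coe_pow]
    show gp K _ ^ 5 = 1
    rw [← lift_gp (K := K) (lroots wordB), ← map_pow, b5, map_one]
  · apply Subtype.ext
    show gp K _ * gp K _ = gp K _ * gp K _
    rw [← lift_gp (K := K) (lroots wordA), ← lift_gp (K := K) (lroots wordB), ← map_mul, ← map_mul, ab]
  · intro e
    refine hne (Cfsg.Agent.H65.mapGL_injective (ZMod.castHom (dvd_refl 2) K) ?_)
    rw [map_one]
    exact (lift_gp _).trans (congrArg Subtype.val e)

theorem witness_conj (i j : Fin 5) (h : (i.val, j.val) ≠ (0, 0)) :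
    IsConj (elA K) (elA K ^ i.val * elB K ^ j.val) := by
  obtain ⟨⟨a, b, s, k⟩, he, rfl, rfl⟩ := witness_all i j h
  have hs := lroots_mem (K := ZMod 2) (word_lt.2.2 _ he)
  have hn : ∀ r ∈ w16 ++ w35, r ∈ roots := by decide
  have hA := rowsOf_gp (lroots wordA) (lroots_mem (K := ZMod 2) word_lt.1).1
  have hC := rowsOf_mul (rowsOf_gp (lroots s) hs.1) (rowsOf_pow (rowsOf_gp (w16 ++ w35) hn) k)
  have e := congrArg (lift K) (eq_of_rows (rowsOf_mul hC hA) (rowsOf_mul bits_ab hC) (witness_spec _ he))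
  simp only [map_mul, map_pow, lift_gp] at e
  refine isConj_iff.2 ⟨⟨gp K (lroots s) * gp K (w16 ++ w35) ^ k, mul_mem (lroots_mem (word_lt.2.2 _ he)).2
    (pow_mem (by rw [gp_append]; exact mul_mem w16_mem w35_mem) k)⟩, Subtype.ext ?_⟩
  simp only [Subgroup.coe_mul, Subgroup.coe_inv, SubgroupClass.coe_pow]
  rw [mul_inv_eq_iff_eq_mul]
  exact e

/-- The subgroup of order 25, as the image of a hom. -/
theorem exists_five_hom : ∃ Φ : Multiplicative (ZMod 5 × ZMod 5) →* ↥(twistedE6 K 2),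
    Function.Injective Φ ∧ ∀ p, p ≠ 1 → IsConj (elA K) (Φ p) := by
  obtain ⟨ha, hb, hab, hne⟩ := relations (K := K)
  have hpow : ∀ {g : ↥(twistedE6 K 2)}, g ^ 5 = 1 → ∀ x y : ZMod 5, g ^ (x + y).val = g ^ x.val * g ^ y.val := by
    intro g hg x y
    rw [← pow_add, ZMod.val_add, pow_eq_pow_mod (x.val + y.val) hg]
  let Φ : Multiplicative (ZMod 5 × ZMod 5) →* ↥(twistedE6 K 2) :=
    MonoidHom.mk' (fun p => elA K ^ p.toAdd.1.val * elB K ^ p.toAdd.2.val) fun p q => by
      simp only [toAdd_mul, Prod.fst_add, Prod.snd_add, hpow ha, hpow hb]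
      rw [mul_assoc, ← mul_assoc (elA K ^ q.toAdd.1.val), (hab.pow_pow _ _).eq]
      simp only [mul_assoc]
  have key : ∀ p, p ≠ 1 → IsConj (elA K) (Φ p) := fun p hp => by
    refine witness_conj ⟨p.toAdd.1.val, ZMod.val_lt _⟩ ⟨p.toAdd.2.val, ZMod.val_lt _⟩ fun e => hp ?_
    obtain ⟨e1, e2⟩ := Prod.mk.inj e
    exact toAdd_eq_zero.1 (Prod.ext ((ZMod.val_eq_zero _).1 e1) ((ZMod.val_eq_zero _).1 e2))
  refine ⟨Φ, (injective_iff_map_eq_one Φ).2 fun p hp => ?_, key⟩
  by_contra hp1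
  have := key p hp1
  rw [hp, isConj_one_left] at this
  exact hne this

theorem padicFive_card [Fintype K] (hK : Fintype.card K = 4) :
    (Nat.card ↥(twistedE6 K 2)).factorization 5 = 2 := by
  obtain ⟨f, hf⟩ := exists_qFrob Nat.prime_two.isPrimePow (by norm_num : 0 < 2) (q := 2) (F := K)
    (by rw [hK]; rfl)
  have h := card_twistE6 f hf (q := 2) (by rw [hK]; rfl)
  rw [← twistedE6_eq f hf (q := 2) (by rw [hK]; rfl)] at h
  have hc : Nat.card ↥(twistedE6 K 2) = 5 ^ 2 * 3061299187350994157568 := by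
    norm_num at h
    omega
  rw [hc, Nat.factorization_mul (by norm_num) (by norm_num), Finsupp.add_apply,
    Nat.Prime.factorization_pow (by norm_num), Finsupp.single_eq_same,
    Nat.factorization_eq_zero_of_not_dvd (show ¬ 5 ∣ 3061299187350994157568 by norm_num), add_zero]

/-- All elements of order five are conjugate. -/
theorem isConj_of_orderOf [Fintype K] (hK : Fintype.card K = 4) (x : ↥(twistedE6 K 2)) (hx : orderOf x = 5) :
    IsConj (elA K) x := by
  haveI : Fact (Nat.Prime 5) := ⟨by norm_num⟩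
  obtain ⟨Φ, hΦ, key⟩ := exists_five_hom (K := K)
  have hcardR : Nat.card ↥Φ.range = 5 ^ (Nat.card ↥(twistedE6 K 2)).factorization 5 := by
    rw [padicFive_card hK, ← Nat.card_congr (MonoidHom.ofInjective hΦ).toEquiv]
    simp
  let P := Sylow.ofCard Φ.range hcardR
  have hxp : IsPGroup 5 (Subgroup.zpowers x) := IsPGroup.of_card (n := 1) (by rw [Nat.card_zpowers, hx, pow_one])
  obtain ⟨Q, hQ⟩ := hxp.exists_le_sylow
  obtain ⟨c, hc⟩ := MulAction.exists_smul_eq (↥(twistedE6 K 2)) Q P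
  have hmem : c * x * c⁻¹ ∈ (P : Subgroup ↥(twistedE6 K 2)) := by
    rw [← hc, Sylow.coe_subgroup_smul]
    exact ⟨x, hQ (Subgroup.mem_zpowers x), by simp [MulAut.conj_apply, MulDistribMulAction.toMonoidEnd_apply]⟩
  obtain ⟨p, hp⟩ : c * x * c⁻¹ ∈ Φ.range := by simpa [P] using hmem
  have hp1 : p ≠ 1 := by
    rintro rfl
    rw [map_one] at hp
    have : x = 1 := conj_eq_one_iff.1 hp.symm
    rw [this, orderOf_one] at hx
    exact absurd hx (by norm_num)
  refine (key p hp1).trans (isConj_iff.2 ⟨c⁻¹, ?_⟩)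
  rw [hp]
  group

end Cfsg.Agent.H46.E6O5
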