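import Cfsg.Agent.H46.E6O5.A8
import Cfsg.Agent.H46.E6O5.Fusion
import Cfsg.Agent.H46.E6O5.Cent
import Mathlib.FieldTheory.Finite.GaloisField

/-!
The centraliser of an element of order five in ²E₆(2).
-/

set_option autoImplicit false

namespace Cfsg.Agent.H46.E6O5

open Cfsg.Lie Cfsg.Agent.H65 Cfsg.Agent.H55.Tits
open scoped Matrix MatrixGroups

theorem mapGL_eq_of_mem_sub2 {K L : Type*} [Field K] [Field L] (ι : K →+* L) :
    sub2 L ≤ (sub2 K).map (mapGL chevE6 ι) := by
  refine (Subgroup.closure_le _).2 ?_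
  rintro _ ⟨r, hr, rfl⟩
  exact ⟨goodE6.xg r 1, Subgroup.subset_closure ⟨r, hr, rfl⟩, by rw [mapGL_xg goodE6, map_one]⟩

variable {K : Type*} [Field K] [CharP K 2]

theorem roots3_mem : ∀ r ∈ roots3, goodE6.xg r (1 : K) ∈ twistedE6 K 2 := by
  have step : ∀ {a b t : ℕ}, goodE6.xg a (1 : K) ∈ twistedE6 K 2 → goodE6.xg b (1 : K) ∈ twistedE6 K 2 →
      (∀ u ∈ [a, b, a, b], u ∈ roots) → t ∈ roots → pr [a, b, a, b] = rootRows t →
      goodE6.xg t (1 : K) ∈ twistedE6 K 2 := by
    intro a b t ha hb hl ht e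
    rw [← gp_singleton t, ← gp_eq hl (m := [t]) (by simpa using ht) e]
    refine Subgroup.list_prod_mem _ fun g hg => ?_
    obtain ⟨r, hr, rfl⟩ := List.mem_map.1 hg
    simp only [List.mem_cons, List.not_mem_nil, or_false] at hr
    rcases hr with rfl | rfl | rfl | rfl <;> assumption
  have L := letters_mem (K := K)
  have h46 := L 46 (by decide)
  have h25 := L 25 (by decide)
  have h39 := L 39 (by decide)
  have h32 := L 32 (by decide)
  have h60 := L 60 (by decide)
  have h11 := L 11 (by decide)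
  have h44 := L 44 (by decide)
  have h27 := L 27 (by decide)
  have h47 := step h46 h39 (by decide) (by decide) (bracket_steps (47, 46, 39) (by simp))
  have h53 := step h47 h44 (by decide) (by decide) (bracket_steps (53, 47, 44) (by simp))
  have h70 := step h53 h60 (by decide) (by decide) (bracket_steps (70, 53, 60) (by simp))
  have h71 := step h70 h46 (by decide) (by decide) (bracket_steps (71, 70, 46) (by simp))
  have h69 := step h70 h32 (by decide) (by decide) (bracket_steps (69, 70, 32) (by simp))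
  have h24 := step h25 h32 (by decide) (by decide) (bracket_steps (24, 25, 32) (by simp))
  have h18 := step h24 h27 (by decide) (by decide) (bracket_steps (18, 24, 27) (by simp))
  have h1 := step h18 h11 (by decide) (by decide) (bracket_steps (1, 18, 11) (by simp))
  have h0 := step h1 h25 (by decide) (by decide) (bracket_steps (0, 1, 25) (by simp))
  have h2 := step h1 h39 (by decide) (by decide) (bracket_steps (2, 1, 39) (by simp))
  intro r hr
  simp only [roots3, List.mem_cons, List.not_mem_nil, or_false] at hr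
  rcases hr with rfl | rfl | rfl | rfl | rfl | rfl | rfl | rfl | rfl | rfl | rfl | rfl <;> assumption

theorem sub2_le_twisted : sub2 K ≤ twistedE6 K 2 := by
  refine (Subgroup.closure_le _).2 ?_
  rintro _ ⟨r, hr, rfl⟩
  exact roots3_mem r hr

omit [CharP K 2] in
theorem ng_mem_sub (c : K) : goodE6.ng 36 c ∈ sub K [36, 35] ∧ goodE6.ng 56 c ∈ sub K [56, 15] := by
  simp only [Good.ng, negs.1, negs.2]
  exact ⟨mul_mem (mul_mem (xg_mem_sub (by simp) _) (xg_mem_sub (by simp) _)) (xg_mem_sub (by simp) _),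
    mul_mem (mul_mem (xg_mem_sub (by simp) _) (xg_mem_sub (by simp) _)) (xg_mem_sub (by simp) _)⟩

theorem yP_mem {w : K} (hw : w ^ 4 = w) : yP w ∈ twistedE6 K 2 := by
  have hX : goodE6.xg 56 (w ^ 2) * goodE6.xg 36 w ∈ twistedE6 K 2 :=
    Subgroup.subset_closure ⟨[(56, w ^ 2), (36, (w ^ 2) ^ 2)],
      Or.inr ⟨w ^ 2, (56, 36), by simp [e6p1, e6p6], rfl⟩,
      (word_two goodE6 ..).2 (by rw [← pow_mul, hw])⟩
  have hA : ∀ {a b : GL chevE6.Idx K}, a ∈ sub K [56, 15] → b ∈ sub K [36, 35] → a * b = b * a :=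
    fun ha hb => (commute_sub apart_16 ha hb).eq
  have hN : goodE6.ng 56 (1 : K) * goodE6.ng 36 (1 : K) = gp K w16 := by
    have e : gp K w16 = goodE6.xg 56 1 * (goodE6.xg 36 1 * goodE6.xg 15 1) *
        (goodE6.xg 35 1 * goodE6.xg 56 1) * goodE6.xg 36 1 := by simp [gp, w16, mul_assoc]
    rw [e, ← hA (a := goodE6.xg 15 1) (xg_mem_sub (by simp) _) (xg_mem_sub (by simp) _),
      ← hA (a := goodE6.xg 56 1) (b := goodE6.xg 35 1) (xg_mem_sub (by simp) _) (xg_mem_sub (by simp) _)]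
    simp only [Good.ng, negs.1, negs.2, inv_one, CharTwo.neg_eq]
    have c := hA (a := goodE6.xg 56 (1 : K)) (b := goodE6.xg 36 1) (xg_mem_sub (by simp) _) (xg_mem_sub (by simp) _)
    calc _ = goodE6.xg 56 (1 : K) * goodE6.xg 15 1 * (goodE6.xg 56 1 * goodE6.xg 36 1) *
          (goodE6.xg 35 1 * goodE6.xg 36 1) := by simp only [mul_assoc]
      _ = goodE6.xg 56 (1 : K) * goodE6.xg 15 1 * (goodE6.xg 36 1 * goodE6.xg 56 1) *
          (goodE6.xg 35 1 * goodE6.xg 36 1) := by rw [c]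
      _ = _ := by simp only [mul_assoc]
  have e : yP w = gp K w16 * (goodE6.xg 56 (w ^ 2) * goodE6.xg 36 w) := by
    rw [← hN, yP]
    calc _ = goodE6.ng 56 (1 : K) * (goodE6.xg 56 (w ^ 2) * goodE6.ng 36 (1 : K)) * goodE6.xg 36 w := by
          simp only [mul_assoc]
      _ = _ := by rw [hA (xg_mem_sub (by simp) _) (ng_mem_sub 1).1]; simp only [mul_assoc]
  rw [e]
  exact mul_mem w16_mem hX

theorem commute_yP (w : K) {l : GL chevE6.Idx K} (hl : l ∈ sub2 K) : Commute (yP w) l := by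
  have hl' := sub2_le hl
  exact ((commute_sub apart_13 (mul_mem (ng_mem_sub 1).2 (xg_mem_sub (by simp) _)) hl')).mul_left
    (commute_sub apart_63 (mul_mem (ng_mem_sub 1).1 (xg_mem_sub (by simp) _)) hl')

theorem twisted_le_group : twistedE6 K 2 ≤ chevE6.group K := by
  refine (Subgroup.closure_le _).2 ?_
  rintro g ⟨w, hw, hg⟩
  rcases hw with ⟨t, -, r, -, rfl⟩ | ⟨t, ⟨r, s⟩, -, rfl⟩
  · rw [word_one goodE6] at hg; subst hg; exact goodE6.xg_mem_group _ _
  · rw [word_two goodE6] at hg; subst hg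
    exact mul_mem (goodE6.xg_mem_group _ _) (goodE6.xg_mem_group _ _)

theorem pi_gens : graphE6.S.π 46 = 46 ∧ graphE6.S.π 25 = 25 ∧ graphE6.S.π 39 = 39 ∧ graphE6.S.π 32 = 32 ∧
    graphE6.S.π 42 = 37 ∧ graphE6.S.π 37 = 42 ∧ graphE6.S.π 29 = 34 ∧ graphE6.S.π 34 = 29 := by
  decide +kernel

theorem apart_gens : Apart [56] [36] ∧ Apart [15] [35] ∧ Apart [42] [37] ∧ Apart [29] [34] := by decide +kernel

theorem tw_fixed {L : Type*} [Field L] [CharP L 2] [Fintype K] (hK : Fintype.card K = 4) (ι : K →+* L)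
    {g : GL chevE6.Idx K} (hg : g ∈ twistedE6 K 2) : tw L (mapGL chevE6 ι g) = mapGL chevE6 ι g := by
  have h4 : ∀ a : K, a ^ 4 = a := fun a => by rw [← hK]; exact FiniteField.pow_card a
  obtain ⟨q1, q2, q3, q4, q5, q6, q7, q8⟩ := pi_gens
  obtain ⟨p1, p6, m1, m6⟩ := pi_vals
  obtain ⟨a1, a2, a3, a4⟩ := apart_gens
  have pair : ∀ {r s : ℕ}, Apart [r] [s] → graphE6.S.π r = s → graphE6.S.π s = r → ∀ t : K,
      tw L (goodE6.xg r (ι t) * goodE6.xg s (ι (t ^ 2))) = goodE6.xg r (ι t) * goodE6.xg s (ι (t ^ 2)) := by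
    intro r s h e1 e2 t
    obtain ⟨hr, hs, -, -⟩ := h r (by simp) s (by simp)
    rw [map_mul, tw_xg hr, tw_xg hs, e1, e2, ← map_pow, ← map_pow, ← pow_mul, h4]
    exact (commute_sub h (xg_mem_sub (by simp) _) (xg_mem_sub (by simp) _)).eq.symm
  induction hg using Subgroup.closure_induction with
  | mem x hx =>
    obtain ⟨w, hw, hg⟩ := hx
    rcases hw with ⟨t, ht, r, hr, rfl⟩ | ⟨t, ⟨r, s⟩, hrs, rfl⟩
    · rw [word_one goodE6] at hg
      subst hg
      simp only [List.mem_cons, List.not_mem_nil, or_false] at hr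
      rw [mapGL_xg goodE6]
      rcases hr with rfl | rfl | rfl | rfl
      · rw [e6p2, tw_xg (by decide), q1, ← map_pow, ht]
      · rw [e6m2, tw_xg (by decide), q2, ← map_pow, ht]
      · rw [e6p4, tw_xg (by decide), q3, ← map_pow, ht]
      · rw [e6m4, tw_xg (by decide), q4, ← map_pow, ht]
    · rw [word_two goodE6] at hg
      subst hg
      simp only [List.mem_cons, List.not_mem_nil, or_false, Prod.mk.injEq] at hrs
      rw [map_mul, mapGL_xg goodE6, mapGL_xg goodE6]
      rcases hrs with ⟨rfl, rfl⟩ | ⟨rfl, rfl⟩ | ⟨rfl, rfl⟩ | ⟨rfl, rfl⟩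
      · exact pair a1 p1 p6 t
      · exact pair a2 m1 m6 t
      · exact pair a3 q5 q6 t
      · exact pair a4 q7 q8 t
  | one => rw [map_one, map_one]
  | mul a b _ _ ha hb => rw [map_mul, map_mul, ha, hb]
  | inv a _ ha => rw [map_inv, map_inv, ha]

theorem exists_preimage {L : Type*} [Field L] [DecidableEq L] [Fintype K] (hK : Fintype.card K = 4) (ι : K →+* L)
    {a : L} (ha : a ^ 4 = a) : ∃ b, ι b = a := by
  by_contra hne
  push Not at hne
  let p : Polynomial L := Polynomial.X ^ 4 - Polynomial.X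
  have hp : p ≠ 0 := FiniteField.X_pow_card_sub_X_ne_zero L (by norm_num)
  have hroot : ∀ c : L, c ^ 4 = c → c ∈ p.roots.toFinset := fun c hc => by
    rw [Multiset.mem_toFinset, Polynomial.mem_roots hp]
    simp [p, Polynomial.IsRoot, hc]
  have hsub : insert a (Finset.univ.image ι) ⊆ p.roots.toFinset := by
    intro c hc
    rw [Finset.mem_insert, Finset.mem_image] at hc
    rcases hc with rfl | ⟨b, -, rfl⟩
    · exact hroot _ ha
    · exact hroot _ (by rw [← map_pow, ← hK, FiniteField.pow_card])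
  have h1 := (Finset.card_le_card hsub).trans (Multiset.toFinset_card_le _)
  rw [Finset.card_insert_of_notMem (by simpa using hne), Finset.card_image_of_injective _ ι.injective,
    Finset.card_univ, hK] at h1
  have h2 := h1.trans (Polynomial.card_roots' p)
  rw [FiniteField.X_pow_card_sub_X_natDegree_eq L (by norm_num)] at h2
  omega

theorem exists_embedding [Fintype K] (hK : Fintype.card K = 4) :
    ∃ (_ : CharP (GaloisField 2 4) 2), Nonempty (K →+* GaloisField 2 4) := by
  let _ : Algebra (ZMod 2) K := ZMod.algebra K 2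
  refine ⟨inferInstance, ?_⟩
  have h2 : Module.finrank (ZMod 2) K = 2 := by
    have h := Module.card_eq_pow_finrank (K := ZMod 2) (V := K)
    rw [hK, ZMod.card] at h
    exact (Nat.pow_right_injective le_rfl (show 2 ^ 2 = 2 ^ _ from h)).symm
  obtain ⟨f⟩ := FiniteField.nonempty_algHom_of_finrank_dvd (F := ZMod 2) (K := K) (L := GaloisField 2 4)
    (by rw [h2, GaloisField.finrank 2 (by norm_num)]; norm_num)
  exact ⟨f.toRingHom⟩

/-- An element of order five with the expected centraliser. -/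
theorem exists_centralizer [Fintype K] (hK : Fintype.card K = 4) :
    ∃ x : ↥(twistedE6 K 2), orderOf x = 5 ∧
      Nonempty (↥(Subgroup.centralizer ({x} : Set ↥(twistedE6 K 2))) ≃*
        (Multiplicative (ZMod 5) × ↥(alternatingGroup (Fin 8)))) := by
  classical
  obtain ⟨hL2, ⟨ι⟩⟩ := exists_embedding hK
  let L := GaloisField 2 4
  let _ : Fintype L := Fintype.ofFinite L
  have hL : Fintype.card L = 16 := by
    rw [Fintype.card_eq_nat_card, GaloisField.card 2 4 (by norm_num)]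
    rfl
  haveI : Fact (Nat.Prime 5) := ⟨by norm_num⟩
  obtain ⟨u, hu⟩ := exists_prime_orderOf_dvd_card (G := Lˣ) 5 (by rw [Fintype.card_units, hL]; norm_num)
  have hprim : IsPrimitiveRoot u 5 := hu ▸ IsPrimitiveRoot.orderOf u
  have hu5 : (u : L) ^ 5 = 1 := by rw [← Units.val_pow_eq_pow_val, hprim.pow_eq_one, Units.val_one]
  have hu1 : (u : L) ≠ 1 := fun e => by
    rw [Units.val_eq_one] at e
    rw [e, orderOf_one] at hu
    exact absurd hu (by norm_num)
  have hw4 : ((u : L) + (u : L) ^ 4) ^ 4 = (u : L) + (u : L) ^ 4 := by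
    calc _ = (((u : L) + (u : L) ^ 4) ^ 2) ^ 2 := by ring
      _ = ((u : L) ^ 2 + ((u : L) ^ 4) ^ 2) ^ 2 := by rw [CharTwo.add_sq]
      _ = ((u : L) ^ 2) ^ 2 + (((u : L) ^ 4) ^ 2) ^ 2 := CharTwo.add_sq _ _
      _ = (u : L) ^ 4 + ((u : L) ^ 5) ^ 3 * (u : L) := by ring
      _ = _ := by rw [hu5, one_pow, one_mul, add_comm]
  obtain ⟨w, hw⟩ := exists_preimage hK ι hw4
  obtain ⟨g, hg, hgcomm, hgtw, hgY⟩ := exists_conjugator hu5 hu1
  have hwK : w ^ 4 = w := by rw [← hK]; exact FiniteField.pow_card w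
  let x : ↥(twistedE6 K 2) := ⟨yP w, yP_mem hwK⟩
  have hY : mapGL chevE6 ι (yP w) = yP ((u : L) + (u : L) ^ 4) := by
    rw [← hw]
    simp only [yP, map_mul, mapGL_ng goodE6, mapGL_xg goodE6, map_one, map_pow]
  set Y : GL chevE6.Idx L := yP ((u : L) + (u : L) ^ 4) with hYdef
  set T : GL chevE6.Idx L := tP (u : L) with hTdef
  have hYT : Y = g * T * g⁻¹ := by rw [← hgY, mul_inv_cancel_right]
  have hT5 : T ^ 5 = 1 := by
    have e : zP u ^ 5 = 1 := by
      have hu' : u ^ 5 = 1 := hprim.pow_eq_one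
      have h2 : (u ^ 2) ^ 5 = 1 := by rw [← pow_mul, mul_comm, pow_mul, hu', one_pow]
      simp only [zP, mul_pow, ← Pi.mulSingle_pow, hu', h2, Pi.mulSingle_one, mul_one]
    rw [hTdef, ← torus_zP, ← map_pow, e, map_one]
  have hT1 : T ≠ 1 := by
    intro e
    rw [hTdef, ← torus_zP] at e
    have := (goodE6.torus_eq_one_iff _).1 e 37 (by decide)
    rw [val_zP, chi_simple.2.2.2.2.1, zpow_neg, zpow_one, inv_eq_one] at this
    exact hu1 (by rw [this, Units.val_one])
  have hx5 : x ^ 5 = 1 := by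
    refine Subtype.ext (mapGL_injective ι ?_)
    rw [SubgroupClass.coe_pow, map_pow, OneMemClass.coe_one, map_one]
    show mapGL chevE6 ι (yP w) ^ 5 = 1
    rw [hY, hYT, conj_pow, hT5, mul_one, mul_inv_cancel]
  have hxord : orderOf x = 5 := by
    refine orderOf_eq_prime hx5 fun e => hT1 ?_
    have h1 : mapGL chevE6 ι (yP w) = 1 := by rw [show yP w = 1 from congrArg Subtype.val e, map_one]
    rw [hY, hYT] at h1
    exact conj_eq_one_iff.1 h1
  obtain ⟨ψ, hψ, hψr⟩ := exists_altHom K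
  have hψG : ∀ a, ψ a ∈ twistedE6 K 2 := fun a => sub2_le_twisted (hψr ▸ ⟨a, rfl⟩)
  let ψG : ↥(alternatingGroup (Fin 8)) →* ↥(twistedE6 K 2) := ψ.codRestrict _ hψG
  have hψc : ∀ a, Commute x (ψG a) := fun a => Subtype.ext (commute_yP w (hψr ▸ ⟨a, rfl⟩)).eq
  let χ : Multiplicative (ZMod 5) →* ↥(twistedE6 K 2) := MonoidHom.mk' (fun i => x ^ i.toAdd.val) fun i j => by
    rw [← pow_add, toAdd_mul, ZMod.val_add, ← pow_eq_pow_mod _ hx5]
  have hχψ : ∀ i a, Commute (χ i) (ψG a) := fun i a => (hψc a).pow_left _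
  let Φ := χ.noncommCoprod ψG hχψ
  have hΦ : Function.Injective Φ := by
    refine (injective_iff_map_eq_one Φ).2 ?_
    rintro ⟨i, a⟩ h
    change χ i * ψG a = 1 at h
    have ha : ψG a = (χ i)⁻¹ := eq_inv_of_mul_eq_one_right h
    have hinj : Function.Injective ψG := fun a b e => hψ (congrArg Subtype.val e)
    have hcen : a ∈ Subgroup.center ↥(alternatingGroup (Fin 8)) := Subgroup.mem_center_iff.2 fun b => hinj (by
      rw [map_mul, map_mul, ha]
      exact ((hχψ i b).inv_left).eq.symm)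
    rw [alternatingGroup.center_eq_bot (by simp), Subgroup.mem_bot] at hcen
    subst hcen
    rw [map_one, mul_one] at h
    have h' : x ^ i.toAdd.val = 1 := h
    have hi : (5 : ℕ) ∣ i.toAdd.val := by
      have := orderOf_dvd_of_pow_eq_one h'
      rwa [hxord] at this
    have : i.toAdd.val = 0 := Nat.eq_zero_of_dvd_of_lt hi (ZMod.val_lt _)
    exact Prod.ext (toAdd_eq_zero.1 ((ZMod.val_eq_zero _).1 this)) rfl
  have hrange : Φ.range = Subgroup.centralizer ({x} : Set ↥(twistedE6 K 2)) := by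
    refine le_antisymm ?_ ?_
    · rintro _ ⟨⟨i, a⟩, rfl⟩
      rw [Subgroup.mem_centralizer_singleton_iff]
      exact (((Commute.refl x).pow_right _).mul_right (hψc a)).eq.symm
    intro z hz
    rw [Subgroup.mem_centralizer_singleton_iff] at hz
    set Z : GL chevE6.Idx L := mapGL chevE6 ι (z : GL chevE6.Idx K) with hZdef
    have hZG : Z ∈ chevE6.group L := mapGL_mem_group ι (twisted_le_group z.2)
    have hZY : Z * Y = Y * Z := by
      rw [← hY, hZdef, ← map_mul, ← map_mul]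
      exact congrArg (mapGL chevE6 ι) (congrArg Subtype.val hz)
    set m := g⁻¹ * Z * g with hm
    have hmc : T * m = m * T := by
      have hT' : T = g⁻¹ * Y * g := by rw [hYT]; group
      rw [hT', hm]
      calc _ = g⁻¹ * (Y * Z) * g := by group
        _ = g⁻¹ * (Z * Y) * g := by rw [hZY]
        _ = _ := by group
    have hmfix : goodE6.ng 36 (1 : L) * tw L m * (goodE6.ng 36 (1 : L))⁻¹ = m := by
      rw [hm, map_mul, map_mul, map_inv, hgtw, tw_fixed hK ι z.2, ← hZdef]
      group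
    obtain ⟨k, l, hl, hml⟩ := structure_of_commute hL hprim
      (mul_mem (mul_mem (inv_mem hg) hZG) hg) hmc hmfix
    obtain ⟨l0, hl0, rfl⟩ := mapGL_eq_of_mem_sub2 ι hl
    obtain ⟨a, rfl⟩ : l0 ∈ ψ.range := hψr ▸ hl0
    have hgl : Commute g (mapGL chevE6 ι (ψ a)) := hgcomm _ (sub2_le hl)
    have hZeq : Z = Y ^ k * mapGL chevE6 ι (ψ a) := by
      calc Z = g * m * g⁻¹ := by rw [hm]; group
        _ = g * (T ^ k * mapGL chevE6 ι (ψ a)) * g⁻¹ := by rw [hm, hml]
        _ = g * T ^ k * g⁻¹ * (g * mapGL chevE6 ι (ψ a) * g⁻¹) := by group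
        _ = _ := by rw [hgl.eq, mul_inv_cancel_right, hYT, conj_pow]
    refine ⟨(Multiplicative.ofAdd (k : ZMod 5), a), Subtype.ext (mapGL_injective ι ?_)⟩
    show mapGL chevE6 ι ((x ^ (ZMod.val (k : ZMod 5)) * ψG a : ↥(twistedE6 K 2)) : GL chevE6.Idx K) = Z
    rw [ZMod.val_natCast, ← pow_eq_pow_mod _ hx5, Subgroup.coe_mul, SubgroupClass.coe_pow, map_mul, map_pow,
      show mapGL chevE6 ι (x : GL chevE6.Idx K) = Y from hY, hZeq]
    rfl
  exact ⟨x, hxord, ⟨((MonoidHom.ofInjective hΦ).trans (MulEquiv.subgroupCongr hrange)).symm⟩⟩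

end Cfsg.Agent.H46.E6O5
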