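import Cfsg.Agent.H46.TwistTypes
import Cfsg.Agent.H46.TwistGraph
import Cfsg.Agent.H46.SL2Hom
import Cfsg.Agent.H46.E6O5.Weyl

/-!
The element of order five in the pair of commuting SL₂ exchanged by the twist, and a conjugating element.
-/

set_option autoImplicit false

namespace Cfsg.Agent.H46.E6O5

open Cfsg.Lie
open scoped Matrix MatrixGroups

variable {L : Type*} [Field L] [CharP L 2]

/-- The twisted map. -/
noncomputable def tw (L : Type*) [Field L] [CharP L 2] : GL chevE6.Idx L →* GL chevE6.Idx L :=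
  goodE6.twistHom okE6.check (frobenius L 2)

theorem sign_cases : ∀ r : Fin chevE6.nroots, graphE6.S.ε r = 1 ∨ graphE6.S.ε r = -1 := by decide +kernel

theorem tw_xg {r : ℕ} (hr : r < chevE6.nroots) (t : L) :
    tw L (goodE6.xg r t) = goodE6.xg (graphE6.S.π r) (t ^ 2) := by
  rw [tw, goodE6.twistHom_xg okE6.check _ hr, frobenius_def]
  congr 1
  rcases sign_cases ⟨r, hr⟩ with h | h <;> simp only at h <;> rw [h] <;> simp [CharTwo.neg_eq]

theorem pi_vals : graphE6.S.π 56 = 36 ∧ graphE6.S.π 36 = 56 ∧ graphE6.S.π 15 = 35 ∧ graphE6.S.π 35 = 15 := by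
  decide +kernel

theorem pi_roots3 : ∀ r ∈ roots3, graphE6.S.π r = r := by decide +kernel

theorem negs : chevE6.neg 36 = 35 ∧ chevE6.neg 56 = 15 := by decide +kernel

/-- The subgroup of some roots. -/
def sub (L : Type*) [Field L] (l : List ℕ) : Subgroup (GL chevE6.Idx L) :=
  Subgroup.closure {g | ∃ r ∈ l, ∃ t : L, g = goodE6.xg r t}

omit [CharP L 2] in
theorem xg_mem_sub {l : List ℕ} {r : ℕ} (h : r ∈ l) (t : L) : goodE6.xg r t ∈ sub L l :=
  Subgroup.subset_closure ⟨r, h, t, rfl⟩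

omit [CharP L 2] in
theorem sub_le_group (l : List ℕ) : sub L l ≤ chevE6.group L := by
  refine (Subgroup.closure_le _).2 ?_
  rintro _ ⟨r, -, t, rfl⟩
  exact goodE6.xg_mem_group r t

/-- Root systems commuting elementwise. -/
def Apart (l m : List ℕ) : Prop :=
  ∀ r ∈ l, ∀ s ∈ m, r < chevE6.nroots ∧ s < chevE6.nroots ∧ s ≠ chevE6.neg r ∧ chevE6.commTerms r s = []

instance (l m : List ℕ) : Decidable (Apart l m) := inferInstanceAs (Decidable (∀ _, _))

omit [CharP L 2] in
theorem commute_sub {l m : List ℕ} (h : Apart l m) {g k : GL chevE6.Idx L} (hg : g ∈ sub L l)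
    (hk : k ∈ sub L m) : Commute g k := by
  induction hg using Subgroup.closure_induction with
  | mem x hx =>
    obtain ⟨r, hr, t, rfl⟩ := hx
    induction hk using Subgroup.closure_induction with
    | mem y hy =>
      obtain ⟨s, hs, u, rfl⟩ := hy
      obtain ⟨h1, h2, h3, h4⟩ := h r hr s hs
      exact goodE6.xg_commute h1 h2 h3 h4 t u
    | one => exact Commute.one_right _
    | mul a b _ _ ha hb => exact ha.mul_right hb
    | inv a _ ha => exact ha.inv_right
  | one => exact Commute.one_left _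
  | mul a b _ _ ha hb => exact ha.mul_left hb
  | inv a _ ha => exact ha.inv_left

theorem apart_16 : Apart [56, 15] [36, 35] := by decide +kernel

theorem apart_13 : Apart [56, 15] roots3 := by decide +kernel

theorem apart_63 : Apart [36, 35] roots3 := by decide +kernel

theorem tw_sub : ∀ {g : GL chevE6.Idx L}, g ∈ sub L [36, 35] → tw L g ∈ sub L [56, 15] := by
  intro g hg
  induction hg using Subgroup.closure_induction with
  | mem x hx =>
    obtain ⟨r, hr, t, rfl⟩ := hx
    obtain ⟨p1, p6, m1, m6⟩ := pi_vals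
    simp only [List.mem_cons, List.not_mem_nil, or_false] at hr
    rcases hr with rfl | rfl
    · rw [tw_xg (by decide), p6]; exact xg_mem_sub (by simp) _
    · rw [tw_xg (by decide), m6]; exact xg_mem_sub (by simp) _
  | one => rw [map_one]; exact one_mem _
  | mul a b _ _ ha hb => rw [map_mul]; exact mul_mem ha hb
  | inv a _ ha => rw [map_inv]; exact inv_mem ha

theorem tw_ng36 (c : L) : tw L (goodE6.ng 36 c) = goodE6.ng 56 (c ^ 2) := by
  obtain ⟨p1, p6, m1, m6⟩ := pi_vals
  simp only [Good.ng, map_mul, negs.1, negs.2]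
  rw [tw_xg (by decide), tw_xg (by decide), p6, m6, neg_sq, inv_pow, CharTwo.neg_eq]

theorem tw_hg36 (c : L) : tw L (goodE6.hg 36 c) = goodE6.hg 56 (c ^ 2) := by
  rw [Good.hg, Good.hg, map_mul, tw_ng36, tw_ng36, CharTwo.neg_eq, one_pow]

/-- The element of order five. -/
noncomputable def yP (w : L) : GL chevE6.Idx L :=
  goodE6.ng 56 (1 : L) * goodE6.xg 56 (w ^ 2) * (goodE6.ng 36 (1 : L) * goodE6.xg 36 w)

/-- The diagonal element conjugate to it. -/
noncomputable def tP (lam : L) : GL chevE6.Idx L := goodE6.hg 56 (lam ^ 2) * goodE6.hg 36 lam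

theorem slW_eq {R : Type*} [Field R] : (slW : Matrix.SpecialLinearGroup (Fin 2) R) = slX 1 * slY (-1) * slX 1 := by
  refine Subtype.ext ?_
  rw [sl_mul_val, sl_mul_val, coe_slW, coe_slX, coe_slY]
  ext i j
  fin_cases i <;> fin_cases j <;> simp [Matrix.mul_apply, Fin.sum_univ_two]

theorem exists_conjugator {lam : L} (h5 : lam ^ 5 = 1) (h1 : lam ≠ 1) :
    ∃ g : GL chevE6.Idx L, g ∈ chevE6.group L ∧ (∀ k ∈ sub L roots3, Commute g k) ∧
      tw L g = g * goodE6.ng 36 (1 : L) ∧ yP (lam + lam ^ 4) * g = g * tP lam := by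
  obtain ⟨φ, -, hφ⟩ := goodE6.exists_slHom (F := L) (r := 36) (by decide)
  have hX : ∀ t, φ (slX t) = goodE6.xg 36 t := fun t => goodE6.eq_xg ((hφ _ t).1 rfl)
  have hY : ∀ t, φ (slY t) = goodE6.xg 35 t := fun t => by
    rw [← negs.1]; exact goodE6.eq_xg ((hφ _ t).2 rfl)
  have hW : φ slW = goodE6.ng 36 (1 : L) := by
    rw [slW_eq, map_mul, map_mul, hX, hY, Good.ng, negs.1, inv_one]
  have hmem : ∀ M, φ M ∈ sub L [36, 35] := fun M => by
    refine sl_generated ((sub L [36, 35]).comap φ) (fun t => ?_) ?_ M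
    · rw [Subgroup.mem_comap, hX]; exact xg_mem_sub (by simp) _
    · rw [Subgroup.mem_comap, hW, Good.ng, negs.1]
      exact mul_mem (mul_mem (xg_mem_sub (by simp) _) (xg_mem_sub (by simp) _)) (xg_mem_sub (by simp) _)
  let ψ : L →+* L := (frobenius L 2).comp (frobenius L 2)
  have hψ : ∀ t, ψ t = (t ^ 2) ^ 2 := fun t => by simp [ψ, frobenius_def]
  have hsq : ∀ M, tw L (tw L (φ M)) = φ (Matrix.SpecialLinearGroup.map ψ M) := fun M => by
    obtain ⟨p1, p6, m1, m6⟩ := pi_vals
    have key : ∀ t : L, tw L (tw L (φ (slX t))) = φ (Matrix.SpecialLinearGroup.map ψ (slX t)) := fun t => by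
      have e : Matrix.SpecialLinearGroup.map ψ (slX t) = slX ((t ^ 2) ^ 2) := by
        refine Subtype.ext ?_
        show (slX t).1.map ψ = (slX ((t ^ 2) ^ 2)).1
        rw [coe_slX, coe_slX]
        ext i j
        fin_cases i <;> fin_cases j <;> simp [hψ]
      rw [e, hX, hX, tw_xg (by decide), p6, tw_xg (by decide), p1]
    refine sl_generated (((tw L).comp ((tw L).comp φ)).eqLocus (φ.comp (Matrix.SpecialLinearGroup.map ψ))) key ?_ M
    show tw L (tw L (φ slW)) = φ (Matrix.SpecialLinearGroup.map ψ slW)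
    have e : Matrix.SpecialLinearGroup.map ψ (slW : Matrix.SpecialLinearGroup (Fin 2) L) = slW := by
      refine Subtype.ext ?_
      show (slW : Matrix.SpecialLinearGroup (Fin 2) L).1.map ψ = slW.1
      rw [coe_slW]
      ext i j
      fin_cases i <;> fin_cases j <;> simp [hψ, CharTwo.neg_eq]
    rw [e, slW_eq]
    simp only [map_mul, hX, hY]
    simp only [tw_xg (show (36 : ℕ) < chevE6.nroots by decide), tw_xg (show (35 : ℕ) < chevE6.nroots by decide),
      tw_xg (show (56 : ℕ) < chevE6.nroots by decide), tw_xg (show (15 : ℕ) < chevE6.nroots by decide), p1, p6, m1, m6]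
    simp [CharTwo.neg_eq]
  set w := lam + lam ^ 4 with hw
  have h2 : (2 : L) = 0 := CharTwo.two_eq_zero
  have hgeo : 1 + lam + lam ^ 2 + lam ^ 3 + lam ^ 4 = 0 := by
    have : (lam - 1) * (1 + lam + lam ^ 2 + lam ^ 3 + lam ^ 4) = 0 := by linear_combination h5
    exact (mul_eq_zero.1 this).resolve_left (sub_ne_zero.2 h1)
  have hl0 : lam ≠ 0 := fun e => by rw [e, zero_pow (by norm_num)] at h5; exact zero_ne_one h5
  have hdet : Matrix.det !![w, w; lam * w, lam ^ 4 * w] = 1 := by
    rw [Matrix.det_fin_two_of, hw]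
    grind
  let M : Matrix.SpecialLinearGroup (Fin 2) L := ⟨!![w, w; lam * w, lam ^ 4 * w], hdet⟩
  let Dg : Matrix.SpecialLinearGroup (Fin 2) L :=
    ⟨!![lam, 0; 0, lam⁻¹], by rw [Matrix.det_fin_two_of, mul_inv_cancel₀ hl0, zero_mul, sub_zero]⟩
  have hD : φ Dg = goodE6.hg 36 lam := by
    have e : Dg = slX lam * slY (-lam⁻¹) * slX lam * (slX (-1) * slY 1 * slX (-1)) := by
      refine Subtype.ext ?_
      simp only [sl_mul_val, coe_slX, coe_slY]
      ext i j
      fin_cases i <;> fin_cases j <;> simp [Dg, Matrix.mul_apply, Fin.sum_univ_two, hl0]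
    rw [e, Good.hg, Good.ng, Good.ng, negs.1]
    simp only [map_mul, hX, hY, inv_neg, inv_one, neg_neg]
  have hinv : lam⁻¹ = lam ^ 4 := inv_eq_of_mul_eq_one_right (by rw [← pow_succ']; exact h5)
  have hPM : slW * slX w * M = M * Dg := by
    refine Subtype.ext ?_
    simp only [sl_mul_val, coe_slX, coe_slW]
    ext i j
    fin_cases i <;> fin_cases j <;>
      simp [M, Dg, Matrix.mul_apply, Fin.sum_univ_two, CharTwo.neg_eq, hinv]
    all_goals (rw [hw]; grind)
  have hMW : Matrix.SpecialLinearGroup.map ψ M = M * slW := by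
    refine Subtype.ext ?_
    show M.1.map ψ = (M * slW).1
    simp only [sl_mul_val, coe_slW]
    ext i j
    fin_cases i <;> fin_cases j <;>
      simp [M, Matrix.mul_apply, Fin.sum_univ_two, CharTwo.neg_eq, hψ]
    all_goals (rw [hw]; grind)
  have hB := hmem M
  have hA := tw_sub hB
  refine ⟨tw L (φ M) * φ M, mul_mem (sub_le_group _ hA) (sub_le_group _ hB),
    fun k hk => (commute_sub apart_13 hA hk).mul_left (commute_sub apart_63 hB hk), ?_, ?_⟩
  · rw [map_mul, hsq, hMW, map_mul, hW]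
    have c : Commute (φ M * goodE6.ng 36 (1 : L)) (tw L (φ M)) :=
      (commute_sub apart_16 hA (mul_mem hB (hW ▸ hmem slW))).symm
    rw [c.eq, mul_assoc]
  · have h6 : goodE6.ng 36 (1 : L) * goodE6.xg 36 w * φ M = φ M * goodE6.hg 36 lam := by
      rw [← hW, ← hX, ← map_mul, ← map_mul, hPM, map_mul, hD]
    have h1' : goodE6.ng 56 (1 : L) * goodE6.xg 56 (w ^ 2) * tw L (φ M) = tw L (φ M) * goodE6.hg 56 (lam ^ 2) := by
      have := congrArg (tw L) h6
      rwa [map_mul, map_mul, map_mul, tw_ng36, tw_hg36, tw_xg (by decide), pi_vals.2.1, one_pow] at this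
    have m6 : goodE6.ng 36 (1 : L) * goodE6.xg 36 w ∈ sub L [36, 35] :=
      mul_mem (hW ▸ hmem slW) (xg_mem_sub (by simp) _)
    have m1 : goodE6.hg 56 (lam ^ 2) ∈ sub L [56, 15] := by
      rw [← tw_hg36, ← hD]; exact tw_sub (hmem Dg)
    show goodE6.ng 56 (1 : L) * goodE6.xg 56 (w ^ 2) * (goodE6.ng 36 (1 : L) * goodE6.xg 36 w) *
      (tw L (φ M) * φ M) = tw L (φ M) * φ M * (goodE6.hg 56 (lam ^ 2) * goodE6.hg 36 lam)
    calc _ = goodE6.ng 56 (1 : L) * goodE6.xg 56 (w ^ 2) *
          ((goodE6.ng 36 (1 : L) * goodE6.xg 36 w) * tw L (φ M)) * φ M := by simp only [mul_assoc]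
      _ = goodE6.ng 56 (1 : L) * goodE6.xg 56 (w ^ 2) * tw L (φ M) *
          ((goodE6.ng 36 (1 : L) * goodE6.xg 36 w) * φ M) := by
        rw [(commute_sub apart_16 hA m6).eq.symm]; simp only [mul_assoc]
      _ = tw L (φ M) * (goodE6.hg 56 (lam ^ 2) * φ M) * goodE6.hg 36 lam := by
        rw [h1', h6]; simp only [mul_assoc]
      _ = _ := by rw [(commute_sub apart_16 m1 hB).eq]; simp only [mul_assoc]

end Cfsg.Agent.H46.E6O5
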